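import Cfsg.Agent.LE.J2ThreeC

/-! Sylow 3- and 7-normalizers in a group of Hall-Janko type. -/

set_option autoImplicit false
set_option linter.style.haveILetI false

namespace Cfsg.Agent.LE

open Subgroup
open Cfsg.Agent.H80

section j2
variable {G : Type*} [Group G] [Finite G] {z t : G} {E L K : Subgroup G} (h : J2Loc z t E L K)
include h

theorem J2Loc.card_CNP3 {P : Subgroup G} {y d : G} (hP : IsSylowIn 3 P ⊤) (hy : y ∈ K)
    (hy3 : orderOf y = 3) (hd : d ∈ L) (hd3 : orderOf d = 3) (hyP : y ∈ P) (hdP : d ∈ P)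
    (hPC : P ≤ centralizer ({y} : Set G)) (h27 : Nat.card P = 27) :
    Nat.card ↥(centralizer ({y} : Set G) ⊓ normalizer (P : Set G)) = 108 := by
  classical
  haveI : Fact (Nat.Prime 3) := ⟨by norm_num⟩
  have hPS : IsSylowIn 3 P (centralizer ({y} : Set G)) :=
    ⟨hP.1, hPC, fun R hR _ hPR => hP.2.2 R hR le_top hPR⟩
  have hC := h.card_C3K hy hy3
  have hn1 := cjSet_modEq hPS
  have hn := card_cjSet (centralizer ({y} : Set G)) P
  have heven := h.even_NP3 hP hy hy3 hd hd3 hyP hdP hPC h27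
  have h27d := Subgroup.card_dvd_of_le (le_inf hPC (le_normalizer : P ≤ _))
  rw [h27] at h27d
  -- L is not contained in N(P)
  have hLC : L ≤ centralizer ({y} : Set G) := fun l hl =>
    mem_centralizer_singleton_iff.2 (h.comm y hy l hl).symm
  have hgt : 4 < Nat.card (cjSet (centralizer ({y} : Set G)) P) := by
    by_contra hle
    push Not at hle
    have hsub : cjSet L P ⊆ cjSet (centralizer ({y} : Set G)) P := by
      rintro _ ⟨l, hl, rfl⟩
      exact ⟨l, hLC hl, rfl⟩
    have hle2 : Nat.card (cjSet L P) ≤ 4 :=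
      (Nat.card_mono (Set.toFinite _) hsub).trans hle
    have hL := card_cjSet L P
    rw [A5.card h.eL] at hL
    have hLN : L ≤ normalizer (P : Set G) := by
      have h1 : ((normalizer (P : Set G)).subgroupOf L).index ≤ 4 := by
        have h2 := ((normalizer (P : Set G)).subgroupOf L).card_mul_index
        rw [A5.card h.eL] at h2
        have h3 : Nat.card ((normalizer (P : Set G)).subgroupOf L) =
            Nat.card ↥(L ⊓ normalizer (P : Set G)) := by
          have h4 : (L ⊓ normalizer (P : Set G)).subgroupOf L = (normalizer (P : Set G)).subgroupOf L :=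
            Subgroup.inf_subgroupOf_left _ L
          rw [← h4]
          exact Nat.card_congr (Subgroup.subgroupOfEquivOfLe inf_le_left).toEquiv
        rw [h3, mul_comm] at h2
        have h5 : 0 < Nat.card ↥(L ⊓ normalizer (P : Set G)) := Nat.card_pos
        have h6 := Nat.eq_of_mul_eq_mul_right h5 (h2.trans hL.symm)
        rw [h6]; exact hle2
      have h7 := A5.index_le_four h.eL _ h1
      exact Subgroup.subgroupOf_eq_top.1 h7
    haveI hnorm : (P.subgroupOf L).Normal := Subgroup.normal_subgroupOf_of_le_normalizer hLN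
    haveI := A5.simple h.eL
    rcases hnorm.eq_bot_or_eq_top with h8 | h8
    · have h9 : (⟨d, hd⟩ : L) ∈ P.subgroupOf L := hdP
      rw [h8, mem_bot] at h9
      have h10 : d = 1 := congrArg Subtype.val h9
      rw [h10, orderOf_one] at hd3; omega
    · have h9 : L ≤ P := Subgroup.subgroupOf_eq_top.1 h8
      have h10 := Subgroup.card_dvd_of_le h9
      rw [A5.card h.eL, h27] at h10
      omega
  rw [hC] at hn
  have hn1' : Nat.card (cjSet (centralizer ({y} : Set G)) P) % 3 = 1 := hn1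
  generalize Nat.card (cjSet (centralizer ({y} : Set G)) P) = n at *
  generalize Nat.card ↥(centralizer ({y} : Set G) ⊓ normalizer (P : Set G)) = c at *
  have h54 : 54 ∣ c := by
    have : Nat.lcm 27 2 ∣ c := Nat.lcm_dvd h27d heven
    exact this
  obtain ⟨m, rfl⟩ := h54
  have hnm : n * m = 20 := by
    have : n * (54 * m) = 54 * (n * m) := by ring
    omega
  have h1 : n ∣ 20 := ⟨m, hnm.symm⟩
  have h2 : n ≤ 20 := Nat.le_of_dvd (by norm_num) h1
  have h3 : n = 10 := by
    interval_cases n <;> omega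
  subst h3
  omega

/-- The centre of `P` is `⟨y⟩`. -/
theorem J2Loc.center_P3 {P : Subgroup G} {y d : G} (hy3 : orderOf y = 3) (hd : d ∈ L)
    (hd3 : orderOf d = 3) (hyP : y ∈ P) (hdP : d ∈ P)
    (hPC : P ≤ centralizer ({y} : Set G)) (h27 : Nat.card P = 27) {c : G} (hcP : c ∈ P)
    (hc : ∀ a ∈ P, a * c = c * a) : c ∈ zpowers y := by
  haveI : Fact (Nat.Prime 3) := ⟨by norm_num⟩
  obtain ⟨-, hZ⟩ := extraspecial_of_card (P := P) (p := 3) (by rw [h27]; norm_num)
    (h.P3_nonab hd hd3 hdP h27)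
  have hyZ : (⟨y, hyP⟩ : P) ∈ Subgroup.center P := by
    rw [Subgroup.mem_center_iff]
    intro a
    exact Subtype.ext (mem_centralizer_singleton_iff.1 (hPC a.2))
  have hle : zpowers (⟨y, hyP⟩ : P) ≤ Subgroup.center P := Subgroup.zpowers_le.2 hyZ
  have heq : zpowers (⟨y, hyP⟩ : P) = Subgroup.center P := by
    apply Subgroup.eq_of_le_of_card_ge hle
    rw [hZ, Nat.card_zpowers, Subgroup.orderOf_mk, hy3]
  have hcZ : (⟨c, hcP⟩ : P) ∈ Subgroup.center P := by
    rw [Subgroup.mem_center_iff]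
    intro a
    exact Subtype.ext (hc a a.2)
  rw [← heq] at hcZ
  obtain ⟨n, hn⟩ := Subgroup.mem_zpowers_iff.1 hcZ
  exact Subgroup.mem_zpowers_iff.2 ⟨n, congrArg Subtype.val hn⟩

omit [Finite G] h in
theorem eq_or_inv_of_mem {y w : G} (hy3 : orderOf y = 3) (hw : w ∈ zpowers y) (hw1 : w ≠ 1) :
    w = y ∨ w = y⁻¹ := by
  obtain ⟨n, hn⟩ := Subgroup.mem_zpowers_iff.1 hw
  have hy3' : y ^ 3 = 1 := by rw [← hy3]; exact pow_orderOf_eq_one y
  have hmod : w = y ^ (n % 3).toNat := by
    rw [← hn, ← zpow_natCast, Int.toNat_of_nonneg (Int.emod_nonneg n (by norm_num))]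
    have := zpow_mod_orderOf y n
    rw [hy3] at this
    exact this.symm
  have hlt : (n % 3).toNat < 3 := by omega
  generalize (n % 3).toNat = m at hmod hlt
  interval_cases m
  · exact absurd (by rw [hmod, pow_zero]) hw1
  · left; rw [hmod, pow_one]
  · right; rw [hmod]
    apply eq_inv_of_mul_eq_one_left
    rw [← pow_succ, hy3']

theorem J2Loc.N_y {P : Subgroup G} {y d : G} (hy3 : orderOf y = 3) (hd : d ∈ L)
    (hd3 : orderOf d = 3) (hyP : y ∈ P) (hdP : d ∈ P)
    (hPC : P ≤ centralizer ({y} : Set G)) (h27 : Nat.card P = 27) {g : G}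
    (hg : g ∈ normalizer (P : Set G)) : g * y * g⁻¹ ∈ zpowers y ∧
      (g * y * g⁻¹ = y ∨ g * y * g⁻¹ = y⁻¹) := by
  have hmem := (mem_normalizer_iff_conj.1 hg y).1 hyP
  have h1 : g * y * g⁻¹ ∈ zpowers y := by
    apply h.center_P3 hy3 hd hd3 hyP hdP hPC h27 hmem
    intro a ha
    have h2 : g⁻¹ * a * g ∈ P := by
      have := (mem_normalizer_iff_conj.1 (inv_mem hg) a).1 ha
      rwa [inv_inv] at this
    have h3 := mem_centralizer_singleton_iff.1 (hPC h2)
    calc a * (g * y * g⁻¹) = g * (g⁻¹ * a * g * y) * g⁻¹ := by group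
      _ = g * (y * (g⁻¹ * a * g)) * g⁻¹ := by rw [h3]
      _ = _ := by group
  refine ⟨h1, eq_or_inv_of_mem hy3 h1 ?_⟩
  intro hh
  have hy1 : y = 1 := by rwa [mul_inv_eq_one, mul_eq_left] at hh
  rw [hy1, orderOf_one] at hy3; omega

theorem J2Loc.card_NP3 {P : Subgroup G} {y d : G} (hP : IsSylowIn 3 P ⊤) (hy : y ∈ K)
    (hy3 : orderOf y = 3) (hd : d ∈ L) (hd3 : orderOf d = 3) (hyP : y ∈ P) (hdP : d ∈ P)
    (hPC : P ≤ centralizer ({y} : Set G)) (h27 : Nat.card P = 27) :
    Nat.card ↥(normalizer (P : Set G)) = 216 := by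
  haveI : Fact (Nat.Prime 3) := ⟨by norm_num⟩
  have hPS : IsSylowIn 3 P (centralizer ({y} : Set G)) :=
    ⟨hP.1, hPC, fun R hR _ hPR => hP.2.2 R hR le_top hPR⟩
  rw [card_two_mul (x := y)]
  · rw [inf_comm, h.card_CNP3 hP hy hy3 hd hd3 hyP hdP hPC h27]
  · intro g hg
    exact (h.N_y hy3 hd hd3 hyP hdP hPC h27 hg).2
  · obtain ⟨g, -, hgy⟩ := h.three_conj y hy3 (h.yz hy)
    have h1 := hPS.cj g
    rw [cj_centralizer_of_inv hgy] at h1
    obtain ⟨c, hc, hcP⟩ := h1.exists_conj hPS
    refine ⟨c * g, ?_, ?_⟩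
    · rw [mem_normalizer_iff_cj, cj_mul, hcP]
    · have h7 : Commute c y := mem_centralizer_singleton_iff.1 hc
      calc c * g * y * (c * g)⁻¹ = c * (g * y * g⁻¹) * c⁻¹ := by group
        _ = c * y⁻¹ * c⁻¹ := by rw [hgy]
        _ = y⁻¹ := by rw [h7.inv_right.eq]; group
  · exact ne_inv_of_order (Or.inl hy3)

theorem J2Loc.conj_d {P : Subgroup G} {y d : G} (hP : IsSylowIn 3 P ⊤) (hy : y ∈ K)
    (hy3 : orderOf y = 3) (hd : d ∈ L) (hd3 : orderOf d = 3) (hyP : y ∈ P) (hdP : d ∈ P)
    (hPC : P ≤ centralizer ({y} : Set G)) (h27 : Nat.card P = 27) {c : G} (hcP : c ∈ P)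
    (hcy : c ∉ zpowers y) : IsConj c d := by
  classical
  have hcomm : ∀ a ∈ zpowers y, ∀ b ∈ zpowers d, a * b = b * a := fun a ha b hb =>
    h.comm a ((Subgroup.zpowers_le.2 hy) ha) b ((Subgroup.zpowers_le.2 hd) hb)
  have hdis : zpowers y ⊓ zpowers d = ⊥ := by
    rw [eq_bot_iff, ← h.disj]
    exact inf_le_inf (Subgroup.zpowers_le.2 hy) (Subgroup.zpowers_le.2 hd)
  have hcard := card_clSet (normalizer (P : Set G)) d
  have hint : normalizer (P : Set G) ⊓ centralizer ({d} : Set G) = zpowers y ⊔ zpowers d := by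
    apply le_antisymm
    · intro g hg
      obtain ⟨hg1, hg2⟩ := Subgroup.mem_inf.1 hg
      exact (h.cent_dy hy hy3 hd hd3).2 g hg2 (h.N_y hy3 hd hd3 hyP hdP hPC h27 hg1).1
    · apply le_inf
      · exact (sup_le (Subgroup.zpowers_le.2 hyP) (Subgroup.zpowers_le.2 hdP)).trans le_normalizer
      · apply sup_le
        · rw [Subgroup.zpowers_le]; exact mem_centralizer_singleton_iff.2 (h.comm y hy d hd)
        · rw [Subgroup.zpowers_le]; exact mem_centralizer_singleton_iff.2 rfl
  rw [hint, card_sup_comm hcomm hdis, Nat.card_zpowers, Nat.card_zpowers, hy3, hd3,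
    h.card_NP3 hP hy hy3 hd hd3 hyP hdP hPC h27] at hcard
  have h24 : (clSet (normalizer (P : Set G)) d).ncard = 24 := by
    change Nat.card (clSet (normalizer (P : Set G)) d) = 24
    omega
  have hsub : clSet (normalizer (P : Set G)) d ⊆ (P : Set G) \ (zpowers y : Set G) := by
    rintro _ ⟨g, hg, rfl⟩
    refine ⟨(mem_normalizer_iff_conj.1 hg d).1 hdP, ?_⟩
    intro h2
    obtain ⟨n, hn⟩ := Subgroup.mem_zpowers_iff.1 h2
    have h3 : g⁻¹ * y * g⁻¹⁻¹ ∈ zpowers y :=
      (h.N_y hy3 hd hd3 hyP hdP hPC h27 (inv_mem hg)).1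
    have h4 : d ∈ zpowers y := by
      have h5 : d = (g⁻¹ * y * g⁻¹⁻¹) ^ n := by
        rw [conj_zpow, hn]; group
      rw [h5]; exact Subgroup.zpow_mem _ h3 n
    have h5 : d ∈ zpowers y ⊓ zpowers d := Subgroup.mem_inf.2 ⟨h4, Subgroup.mem_zpowers d⟩
    rw [hdis, mem_bot] at h5
    rw [h5, orderOf_one] at hd3; omega
  have h24' : ((P : Set G) \ (zpowers y : Set G)).ncard = 24 := by
    rw [Set.ncard_sdiff (show (zpowers y : Set G) ⊆ P from fun a ha => (Subgroup.zpowers_le.2 hyP) ha)]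
    have e1 : (P : Set G).ncard = 27 := h27
    have e2 : (zpowers y : Set G).ncard = 3 := by
      have : Nat.card (zpowers y) = 3 := by rw [Nat.card_zpowers, hy3]
      exact this
    rw [e1, e2]
  have heq := Set.eq_of_subset_of_ncard_le hsub (by rw [h24, h24']) (Set.toFinite _)
  have hc : c ∈ clSet (normalizer (P : Set G)) d := by rw [heq]; exact ⟨hcP, hcy⟩
  obtain ⟨g, -, hg⟩ := hc
  exact (isConj_iff.2 ⟨g, hg⟩ : IsConj d c).symm

/-- every element of order 3 is conjugate to `y` or `d` -/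
theorem J2Loc.class3 {P : Subgroup G} {y d : G} (hP : IsSylowIn 3 P ⊤) (hy : y ∈ K)
    (hy3 : orderOf y = 3) (hd : d ∈ L) (hd3 : orderOf d = 3) (hyP : y ∈ P) (hdP : d ∈ P)
    (hPC : P ≤ centralizer ({y} : Set G)) (h27 : Nat.card P = 27) {c : G} (hc : orderOf c = 3) :
    IsConj c y ∨ IsConj c d := by
  haveI : Fact (Nat.Prime 3) := ⟨by norm_num⟩
  obtain ⟨k, -, hk⟩ := hP.exists_conj_le (X := zpowers c)
    (IsPGroup.of_card (n := 1) (by rw [Nat.card_zpowers, hc, pow_one])) le_top
  have hkc : k * c * k⁻¹ ∈ P := hk (by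
    rw [mem_cj]
    have : k⁻¹ * (k * c * k⁻¹) * k = c := by group
    rw [this]; exact Subgroup.mem_zpowers c)
  have hconj : IsConj c (k * c * k⁻¹) := isConj_iff.2 ⟨k, rfl⟩
  by_cases hmem : k * c * k⁻¹ ∈ zpowers y
  · left
    have hne : k * c * k⁻¹ ≠ 1 := by
      intro hh
      have hc1 : c = 1 := by rwa [mul_inv_eq_one, mul_eq_left] at hh
      rw [hc1, orderOf_one] at hc; omega
    rcases eq_or_inv_of_mem hy3 hmem hne with h1 | h1
    · rwa [h1] at hconj
    · obtain ⟨g, -, hgy⟩ := h.three_conj y hy3 (h.yz hy)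
      rw [h1] at hconj
      exact hconj.trans (isConj_iff.2 ⟨g, hgy⟩ : IsConj y y⁻¹).symm
  · right
    exact hconj.trans (h.conj_d hP hy hy3 hd hd3 hyP hdP hPC h27 hkc hmem)

/-- The statement of S1723. -/
theorem J2Loc.sylow_three (P : Sylow 3 G) : Cfsg.IsExtraspecial 3 (P : Subgroup G) ∧
    Nat.card P = 27 ∧
    Nat.card (Subgroup.normalizer ((P : Subgroup G) : Set G)) = 216 ∧ ∃ a b : G,
      orderOf a = 3 ∧ orderOf b = 3 ∧ ¬ IsConj a b ∧ ∀ c : G, orderOf c = 3 →
        IsConj c a ∨ IsConj c b := by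
  haveI : Fact (Nat.Prime 3) := ⟨by norm_num⟩
  obtain ⟨P₀, y, d, hP, hy, hy3, hd, hd3, hyP, hdP, hPC, h27⟩ := h.exists_P3
  obtain ⟨k, -, hk⟩ := hP.exists_conj (isSylowIn_top P)
  have hc27 : Nat.card (P : Subgroup G) = 27 := by rw [← hk, card_cj, h27]
  refine ⟨?_, hc27, ?_, y, d, hy3, hd3, ?_, ?_⟩
  · apply (extraspecial_of_card (p := 3) (by rw [hc27]; norm_num) _).1
    intro hab
    apply h.P3_nonab hd hd3 hdP h27
    intro a b
    have ha : k * a * k⁻¹ ∈ (P : Subgroup G) := by
      rw [← hk, mem_cj]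
      have : k⁻¹ * (k * a * k⁻¹) * k = a := by group
      rw [this]; exact a.2
    have hb : k * b * k⁻¹ ∈ (P : Subgroup G) := by
      rw [← hk, mem_cj]
      have : k⁻¹ * (k * b * k⁻¹) * k = b := by group
      rw [this]; exact b.2
    have h1 := congrArg Subtype.val (hab ⟨_, ha⟩ ⟨_, hb⟩)
    have h2 : k * (a * b) * k⁻¹ = k * (b * a) * k⁻¹ := by
      calc k * ((a : G) * b) * k⁻¹ = k * a * k⁻¹ * (k * b * k⁻¹) := by group
        _ = k * b * k⁻¹ * (k * a * k⁻¹) := h1
        _ = k * (b * a) * k⁻¹ := by group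
    exact Subtype.ext (mul_left_cancel (mul_right_cancel h2))
  · rw [← hk, normalizer_cj, card_cj]
    exact h.card_NP3 hP hy hy3 hd hd3 hyP hdP hPC h27
  · intro hyd
    have := card_centralizer_conj hyd
    rw [h.card_C3K hy hy3, h.card_C3L hd hd3] at this
    omega
  · intro c hc
    exact h.class3 hP hy hy3 hd hd3 hyP hdP hPC h27 hc

/-- The statement of S1724. -/
theorem J2Loc.sylow_seven (D : Sylow 7 G) :
    Subgroup.centralizer ((D : Subgroup G) : Set G) = D ∧
    Nat.card (Subgroup.normalizer ((D : Subgroup G) : Set G)) = 42 ∧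
    ¬ IsMulCommutative (Subgroup.normalizer ((D : Subgroup G) : Set G)) := by
  haveI : Fact (Nat.Prime 7) := ⟨by norm_num⟩
  haveI : Fact (Nat.Prime 3) := ⟨by norm_num⟩
  have hD7 : Nat.card (D : Subgroup G) = 7 := by
    have := sylowIn_card_eq (k := 1) (m := 86400) (isSylowIn_top D) (by rw [h.card_top]; norm_num)
      (by norm_num)
    rw [this]; norm_num
  have hDab : (D : Subgroup G) ≤ centralizer ((D : Subgroup G) : Set G) := by
    haveI : IsCyclic (D : Subgroup G) := isCyclic_of_prime_card hD7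
    intro a ha
    rw [mem_centralizer_iff]
    intro b hb
    exact congrArg Subtype.val (IsCyclic.commGroup.mul_comm (⟨b, hb⟩ : (D : Subgroup G)) ⟨a, ha⟩)
  -- no element of order 2, 3, 5 centralizes D
  have hno : ∀ c : G, orderOf c = 2 ∨ orderOf c = 3 ∨ orderOf c = 5 →
      ¬ 7 ∣ Nat.card (centralizer ({c} : Set G)) := by
    rintro c (hc | hc | hc)
    · rcases h.hcl c hc with h1 | h1
      · rw [card_centralizer_conj h1, h.cardCz]; norm_num
      · have ht1 : t ≠ 1 := by rintro rfl; have := h.ht; rw [orderOf_one] at this; omega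
        rw [card_centralizer_conj h1, h.hCE t h.htE ht1,
          card_sup_comm (fun a ha b hb => h.commE ha hb)
          (by rw [eq_bot_iff, ← h.disj]; exact inf_le_inf_right L h.hEK), h.cardE, A5.card h.eL]
        norm_num
    · obtain ⟨P₀, y, d, hP, hy, hy3, hd, hd3, hyP, hdP, hPC, h27⟩ := h.exists_P3
      rcases h.class3 hP hy hy3 hd hd3 hyP hdP hPC h27 hc with h1 | h1
      · rw [card_centralizer_conj h1, h.card_C3K hy hy3]; norm_num
      · rw [card_centralizer_conj h1, h.card_C3L hd hd3]; norm_num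
    · rcases h.card_C5x hc with h1 | h1 <;> rw [h1] <;> norm_num
  have hcent : centralizer ((D : Subgroup G) : Set G) = D := by
    symm
    apply Subgroup.eq_of_le_of_card_ge hDab
    rw [hD7]
    obtain ⟨m, hm⟩ := Subgroup.card_dvd_of_le hDab
    rw [hD7] at hm
    have hdvd : Nat.card (centralizer ((D : Subgroup G) : Set G)) ∣ 604800 := by
      rw [← h.cardG]; exact Subgroup.card_subgroup_dvd_card _
    rw [hm] at hdvd ⊢
    have hm1 : m = 1 := by
      by_contra hm1
      obtain ⟨p, hp, hpm⟩ := Nat.exists_prime_and_dvd hm1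
      haveI : Fact p.Prime := ⟨hp⟩
      have h1 : m ∣ 86400 := by
        have : 7 * m ∣ 7 * 86400 := hdvd
        exact Nat.dvd_of_mul_dvd_mul_left (by norm_num) this
      have h2 : p ∣ 86400 := hpm.trans h1
      have h3 : p = 2 ∨ p = 3 ∨ p = 5 := by
        have h4 : p ∣ 2 ^ 7 * (3 ^ 3 * 5 ^ 2) := by norm_num; exact h2
        rcases (Nat.Prime.dvd_mul hp).1 h4 with h5 | h5
        · left; exact (Nat.prime_dvd_prime_iff_eq hp Nat.prime_two).1 (hp.dvd_of_dvd_pow h5)
        · rcases (Nat.Prime.dvd_mul hp).1 h5 with h6 | h6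
          · right; left; exact (Nat.prime_dvd_prime_iff_eq hp (by norm_num)).1 (hp.dvd_of_dvd_pow h6)
          · right; right; exact (Nat.prime_dvd_prime_iff_eq hp (by norm_num)).1 (hp.dvd_of_dvd_pow h6)
      obtain ⟨c, hc, hcp⟩ := exists_mem_orderOf (p := p)
        (K := centralizer ((D : Subgroup G) : Set G)) (by rw [hm]; exact hpm.mul_left 7)
      have h7 : (D : Subgroup G) ≤ centralizer ({c} : Set G) := by
        intro a ha
        exact mem_centralizer_singleton_iff.2 (mem_centralizer_iff.1 hc a ha)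
      have h8 := Subgroup.card_dvd_of_le h7
      rw [hD7] at h8
      exact hno c (by rw [hcp]; exact h3) h8
    rw [hm1]
  -- the normalizer
  obtain ⟨x, hx, hx7⟩ := exists_mem_orderOf (p := 7) (K := (D : Subgroup G)) (by rw [hD7])
  have hxD : zpowers x = (D : Subgroup G) :=
    Subgroup.eq_of_le_of_card_ge (Subgroup.zpowers_le.2 hx) (by rw [hD7, Nat.card_zpowers, hx7])
  have hcx : normalizer ((D : Subgroup G) : Set G) ⊓ centralizer ({x} : Set G) = D := by
    rw [← centralizer_zpowers, hxD, hcent]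
    exact inf_eq_right.2 le_normalizer
  have hcard := card_clSet (normalizer ((D : Subgroup G) : Set G)) x
  rw [hcx, hD7] at hcard
  have hle6 : Nat.card (clSet (normalizer ((D : Subgroup G) : Set G)) x) ≤ 6 := by
    have h1 : clSet (normalizer ((D : Subgroup G) : Set G)) x ⊆ ((D : Subgroup G) : Set G) \ {1} := by
      rintro _ ⟨g, hg, rfl⟩
      refine ⟨(mem_normalizer_iff_conj.1 hg x).1 hx, ?_⟩
      intro h2
      have hx1 : x = 1 := by
        have h2' : g * x * g⁻¹ = 1 := h2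
        rwa [mul_inv_eq_one, mul_eq_left] at h2'
      rw [hx1, orderOf_one] at hx7; omega
    have h2 : (((D : Subgroup G) : Set G) \ {1}).ncard = 6 := by
      rw [Set.ncard_sdiff (show ({1} : Set G) ⊆ ((D : Subgroup G) : Set G) by
        intro a ha
        rw [Set.mem_singleton_iff] at ha
        rw [ha]; exact one_mem (D : Subgroup G)), Set.ncard_singleton]
      have e1 : ((D : Subgroup G) : Set G).ncard = 7 := hD7
      rw [e1]
    have h3 := Set.ncard_le_ncard h1 (Set.toFinite _)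
    rw [h2] at h3
    exact h3
  obtain ⟨n, hn1, hn⟩ := sylow_count (isSylowIn_top D)
  rw [top_inf_eq, h.card_top, ← hcard] at hn
  have hn1' : n % 7 = 1 := hn1
  have h42 : Nat.card (Subgroup.normalizer ((D : Subgroup G) : Set G)) = 42 := by
    rw [← hcard]
    generalize Nat.card (clSet (normalizer ((D : Subgroup G) : Set G)) x) = m at *
    have hnm : n * m = 86400 := by
      have : n * (m * 7) = 7 * (n * m) := by ring
      omega
    have h3 : (n * m) % 7 = 6 := by rw [hnm]
    rw [Nat.mul_mod, hn1', one_mul, Nat.mod_mod] at h3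
    omega
  refine ⟨hcent, h42, ?_⟩
  intro hcomm
  have hle : normalizer ((D : Subgroup G) : Set G) ≤ centralizer ((D : Subgroup G) : Set G) := by
    intro g hg
    rw [mem_centralizer_iff]
    intro a ha
    have := hcomm.is_comm.comm (⟨a, le_normalizer ha⟩ : Subgroup.normalizer ((D : Subgroup G) : Set G)) ⟨g, hg⟩
    exact congrArg Subtype.val this
  have h9 := Subgroup.card_dvd_of_le hle
  rw [h42, hcent, hD7] at h9
  omega

end j2

end Cfsg.Agent.LE
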