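import Cfsg.Agent.LE.J2A

/-! Sylow 5-subgroups in a group of Hall-Janko type. -/

set_option autoImplicit false
set_option linter.style.haveILetI false

namespace Cfsg.Agent.LE

open Subgroup
open Cfsg.Agent.H80

section general
variable {G : Type*} [Group G] [Finite G]

omit [Finite G] in
/-- If all elements of `R` fix or invert `x` and one inverts it. -/
theorem card_two_mul {R : Subgroup G} {x : G} (h1 : ∀ g ∈ R, g * x * g⁻¹ = x ∨ g * x * g⁻¹ = x⁻¹)
    (h2 : ∃ g ∈ R, g * x * g⁻¹ = x⁻¹) (hx : x ≠ x⁻¹) :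
    Nat.card R = 2 * Nat.card ↥(R ⊓ centralizer ({x} : Set G)) := by
  classical
  have h3 : clSet R x = {x, x⁻¹} := by
    ext y
    constructor
    · rintro ⟨k, hk, rfl⟩
      rcases h1 k hk with h | h
      · left; exact h
      · right; exact h
    · rintro (h | h)
      · exact ⟨1, R.one_mem, by rw [h]; group⟩
      · obtain ⟨g, hg, hgx⟩ := h2
        exact ⟨g, hg, by rw [hgx]; exact h.symm⟩
  rw [← card_clSet R x, h3]
  congr 1
  have : Nat.card ↥({x, x⁻¹} : Set G) = ({x, x⁻¹} : Set G).ncard := rfl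
  rw [this, Set.ncard_pair hx]

omit [Finite G] in
theorem centralizer_zpowers (x : G) :
    centralizer ((zpowers x : Subgroup G) : Set G) = centralizer ({x} : Set G) := by
  rw [Subgroup.zpowers_eq_closure, Subgroup.centralizer_closure]

omit [Finite G] in
theorem centralizer_le_norm (P : Subgroup G) : centralizer (P : Set G) ≤ normalizer (P : Set G) := by
  intro g hg
  rw [mem_normalizer_iff_conj]
  intro x
  rw [mem_centralizer_iff] at hg
  constructor
  · intro hx
    have := hg x hx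
    rw [← this]; simpa using hx
  · intro hx
    have h1 := hg _ hx
    have h2 : g * x * g⁻¹ = x := by
      have h3 : g * x * g⁻¹ * g = g * (g * x * g⁻¹) := h1
      have h4 : x = g * x * g⁻¹ := by
        have h5 : g * x = g * (g * x * g⁻¹) := by rw [← h3]; group
        exact mul_left_cancel h5
      exact h4.symm
    rwa [h2] at hx

theorem mem_norm_zpowers {x g : G} :
    g ∈ normalizer ((zpowers x : Subgroup G) : Set G) ↔ g * x * g⁻¹ ∈ zpowers x := by
  constructor
  · intro h
    exact (mem_normalizer_iff_conj.1 h x).1 (Subgroup.mem_zpowers x)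
  · intro h
    rw [mem_normalizer_iff_cj]
    have h1 : cj g (zpowers x) ≤ zpowers x := by
      intro y hy
      rw [mem_cj] at hy
      obtain ⟨k, hk⟩ := Subgroup.mem_zpowers_iff.1 hy
      have h2 : y = (g * x * g⁻¹) ^ k := by
        rw [conj_zpow, hk]; group
      rw [h2]
      exact Subgroup.zpow_mem _ h k
    exact Subgroup.eq_of_le_of_card_ge h1 (by rw [card_cj])

/-- Number of elements of prime order versus subgroups of prime order. -/
theorem card_orderOf_eq (P : Subgroup G) (p : ℕ) [hp : Fact p.Prime] :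
    Nat.card {x : G // x ∈ P ∧ orderOf x = p} =
      Nat.card {X : Subgroup G // X ≤ P ∧ Nat.card X = p} * (p - 1) := by
  classical
  haveI : Fintype G := Fintype.ofFinite G
  haveI : Fintype {X : Subgroup G // X ≤ P ∧ Nat.card X = p} := Fintype.ofFinite _
  let φ : {x : G // x ∈ P ∧ orderOf x = p} → {X : Subgroup G // X ≤ P ∧ Nat.card X = p} :=
    fun x => ⟨zpowers x.1, Subgroup.zpowers_le.2 x.2.1, by rw [Nat.card_zpowers, x.2.2]⟩
  rw [Nat.card_congr (Equiv.sigmaFiberEquiv φ).symm, Nat.card_sigma]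
  have : ∀ X : {X : Subgroup G // X ≤ P ∧ Nat.card X = p},
      Nat.card {x // φ x = X} = p - 1 := by
    intro X
    have h1 : Nat.card {x : X.1 // x ≠ 1} = p - 1 := by
      haveI : Fintype X.1 := Fintype.ofFinite _
      rw [Nat.card_eq_fintype_card, Fintype.card_subtype_compl, Fintype.card_subtype_eq,
        ← Nat.card_eq_fintype_card, X.2.2]
    rw [← h1]
    apply Nat.card_congr
    refine ⟨fun x => ⟨⟨x.1.1, ?_⟩, ?_⟩, fun x => ⟨⟨x.1.1, X.2.1 x.1.2, ?_⟩, ?_⟩, ?_, ?_⟩
    · have h2 : zpowers x.1.1 = X.1 := congrArg Subtype.val x.2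
      rw [← h2]; exact Subgroup.mem_zpowers _
    · intro h3
      have h4 : x.1.1 = 1 := congrArg Subtype.val h3
      have h5 := x.1.2.2
      rw [h4, orderOf_one] at h5
      exact hp.out.one_lt.ne h5
    · have h2 : orderOf x.1.1 ∣ p := by
        have := Subgroup.orderOf_dvd_natCard _ x.1.2
        rwa [X.2.2] at this
      exact ((Nat.dvd_prime hp.out).1 h2).resolve_left (fun h3 => x.2 (Subtype.ext
        (orderOf_eq_one_iff.1 h3)))
    · apply Subtype.ext
      change zpowers x.1.1 = X.1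
      apply Subgroup.eq_of_le_of_card_ge (Subgroup.zpowers_le.2 x.1.2)
      rw [X.2.2, Nat.card_zpowers]
      have h2 : orderOf x.1.1 ∣ p := by
        have := Subgroup.orderOf_dvd_natCard _ x.1.2
        rwa [X.2.2] at this
      exact (((Nat.dvd_prime hp.out).1 h2).resolve_left (fun h3 => x.2 (Subtype.ext
        (orderOf_eq_one_iff.1 h3)))).ge
    · intro x; rfl
    · intro x; rfl
  rw [Finset.sum_congr rfl (fun X _ => this X), Finset.sum_const, Finset.card_univ,
    ← Nat.card_eq_fintype_card, smul_eq_mul]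

end general

section j2
variable {G : Type*} [Group G] [Finite G] {z t : G} {E L K : Subgroup G} (h : J2Loc z t E L K)
include h

omit [Finite G] in
theorem J2Loc.card_top : Nat.card (⊤ : Subgroup G) = 604800 := by
  rw [Subgroup.card_top, h.cardG]

theorem J2Loc.card_syl5 {P : Subgroup G} (hP : IsSylowIn 5 P ⊤) : Nat.card P = 25 := by
  haveI : Fact (Nat.Prime 5) := ⟨by norm_num⟩
  have := sylowIn_card_eq (k := 2) (m := 24192) hP (by rw [h.card_top]; norm_num) (by norm_num)
  rw [this]; norm_num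

theorem J2Loc.comm_syl5 {P : Subgroup G} (hP : IsSylowIn 5 P ⊤) :
    ∀ a ∈ P, ∀ b ∈ P, a * b = b * a := by
  haveI : Fact (Nat.Prime 5) := ⟨by norm_num⟩
  have h1 := IsPGroup.isMulCommutative_of_card_eq_prime_sq (p := 5) (G := P) (by rw [h.card_syl5 hP]; norm_num)
  intro a ha b hb
  have h2 := h1.is_comm.comm ⟨a, ha⟩ ⟨b, hb⟩
  exact congrArg Subtype.val h2

/-- `E` is a Sylow 2-subgroup of `C(x)`, for `x ∈ L` of order 3 or 5. -/
theorem J2Loc.sylE {x : G} (hx : x ∈ L) (hp : orderOf x = 3 ∨ orderOf x = 5) :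
    IsSylowIn 2 E (centralizer ({x} : Set G)) := by
  haveI : Fact (Nat.Prime 2) := ⟨Nat.prime_two⟩
  have hEC : E ≤ centralizer ({x} : Set G) := fun k hk =>
    mem_centralizer_singleton_iff.2 (h.commE hk hx)
  have h4 : Nat.card E = 2 ^ 2 := by rw [h.cardE]; norm_num
  rcases h.cent_L hx hp with h1 | h1
  · rcases hp with hp | hp <;> rw [hp] at h1
    · exact isSylowIn_of_card_eq' (m := 9) hEC h4 (by rw [h1]; norm_num) (by norm_num)
    · exact isSylowIn_of_card_eq' (m := 15) hEC h4 (by rw [h1]; norm_num) (by norm_num)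
  · rcases hp with hp | hp <;> rw [hp] at h1
    · exact isSylowIn_of_card_eq' (m := 45) hEC h4 (by rw [h1.1]; norm_num) (by norm_num)
    · exact isSylowIn_of_card_eq' (m := 75) hEC h4 (by rw [h1.1]; norm_num) (by norm_num)

/-- elements of `N(⟨x⟩)` centralize or invert `x` (`x ∈ L` of order 3 or 5) -/
theorem J2Loc.N_conj {x g : G} (hx : x ∈ L) (hp : orderOf x = 3 ∨ orderOf x = 5)
    (hgx : g * x * g⁻¹ ∈ zpowers x) : g * x * g⁻¹ = x ∨ g * x * g⁻¹ = x⁻¹ := by
  haveI : Fact (Nat.Prime 2) := ⟨Nat.prime_two⟩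
  have hS := h.sylE hx hp
  have hg : g ∈ normalizer ((zpowers x : Subgroup G) : Set G) :=
    mem_norm_zpowers.2 hgx
  have h1 : cj g (centralizer ({x} : Set G)) = centralizer ({x} : Set G) := by
    apply Subgroup.eq_of_le_of_card_ge _ (by rw [card_cj])
    intro y hy
    rw [mem_cj, ← centralizer_zpowers, mem_centralizer_iff] at hy
    rw [mem_centralizer_singleton_iff]
    have h2 : g⁻¹ * x * g ∈ zpowers x := by
      have h3 := (mem_normalizer_iff_conj.1 (inv_mem hg) x).1 (Subgroup.mem_zpowers x)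
      rwa [inv_inv] at h3
    have h3 := hy _ h2
    calc y * x = g * (g⁻¹ * y * g * (g⁻¹ * x * g)) * g⁻¹ := by group
      _ = g * (g⁻¹ * x * g * (g⁻¹ * y * g)) * g⁻¹ := by rw [h3]
      _ = x * y := by group
  have hS' : IsSylowIn 2 (cj g E) (centralizer ({x} : Set G)) := by
    have := hS.cj g
    rwa [h1] at this
  obtain ⟨c, hc, hcE⟩ := hS'.exists_conj hS
  have hcg : c * g ∈ normalizer (E : Set G) := by
    rw [mem_normalizer_iff_cj, cj_mul, hcE]
  have h5 : c * g * x * (c * g)⁻¹ = g * x * g⁻¹ := by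
    rw [← centralizer_zpowers, mem_centralizer_iff] at hc
    have h6 := hc _ hgx
    calc c * g * x * (c * g)⁻¹ = c * (g * x * g⁻¹) * c⁻¹ := by group
      _ = (g * x * g⁻¹) * c * c⁻¹ := by rw [← h6]
      _ = g * x * g⁻¹ := by group
  rw [← h5]
  apply h.NE_conj hx hp hcg
  rw [h5]; exact hgx

omit [Finite G] in
theorem J2Loc.exists_inv {x : G} (hx : x ∈ L) (hp : orderOf x = 3 ∨ orderOf x = 5) :
    ∃ l ∈ L, l ≠ 1 ∧ l * l = 1 ∧ l * x * l⁻¹ = x⁻¹ := by
  rcases hp with hp | hp
  · obtain ⟨l, h1, h2, h3⟩ := A5.three_inv h.eL (f := ⟨x, hx⟩) (by rw [← hp]; exact Subgroup.orderOf_mk x hx)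
    exact ⟨l, l.2, fun h4 => h1 (Subtype.ext h4), congrArg Subtype.val h2, congrArg Subtype.val h3⟩
  · obtain ⟨l, h1, h2, h3⟩ := A5.five_inv h.eL (f := ⟨x, hx⟩) (by rw [← hp]; exact Subgroup.orderOf_mk x hx)
    exact ⟨l, l.2, fun h4 => h1 (Subtype.ext h4), congrArg Subtype.val h2, congrArg Subtype.val h3⟩

omit [Finite G] h in
theorem ne_inv_of_order {x : G} (hp : orderOf x = 3 ∨ orderOf x = 5) : x ≠ x⁻¹ := by
  intro h1
  have h2 : orderOf x ∣ 2 := orderOf_dvd_of_pow_eq_one (by
    rw [pow_two]; nth_rewrite 2 [h1]; exact mul_inv_cancel x)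
  rcases hp with hp | hp <;> rw [hp] at h2 <;> omega

theorem J2Loc.card_C5 {f : G} (hf : f ∈ L) (h5 : orderOf f = 5) :
    Nat.card (centralizer ({f} : Set G)) = 300 ∧
      Nonempty (↥(centralizer ({f} : Set G)) ⧸ zpowers (selfC f) ≃* alternatingGroup (Fin 5)) := by
  haveI : Fact (Nat.Prime 5) := ⟨by norm_num⟩
  have hfp : IsPGroup 5 (zpowers f) := IsPGroup.of_card (n := 1) (by rw [Nat.card_zpowers, h5, pow_one])
  obtain ⟨P, hP, hfP⟩ := exists_isSylowIn_ge hfp (le_top : zpowers f ≤ ⊤)
  have hPC : P ≤ centralizer ({f} : Set G) := fun a ha =>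
    mem_centralizer_singleton_iff.2 (h.comm_syl5 hP a ha f (hfP (Subgroup.mem_zpowers f)))
  have h25 := Subgroup.card_dvd_of_le hPC
  rw [h.card_syl5 hP] at h25
  rcases h.cent_L hf (Or.inr h5) with h1 | h1
  · rw [h1, h5] at h25; omega
  · rw [h5] at h1; exact ⟨by rw [h1.1], h1.2⟩

/-- `|N_{C(f)}(P)| = 50` -/
theorem J2Loc.card_CN {f : G} (hf : f ∈ L) (h5 : orderOf f = 5) {P : Subgroup G}
    (hP : IsSylowIn 5 P ⊤) (hfP : f ∈ P) :
    Nat.card ↥(centralizer ({f} : Set G) ⊓ normalizer (P : Set G)) = 50 := by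
  haveI : Fact (Nat.Prime 5) := ⟨by norm_num⟩
  have hPC : P ≤ centralizer ({f} : Set G) := fun a ha =>
    mem_centralizer_singleton_iff.2 (h.comm_syl5 hP a ha f hfP)
  have hPS : IsSylowIn 5 P (centralizer ({f} : Set G)) :=
    ⟨hP.1, hPC, fun R hR _ hPR => hP.2.2 R hR le_top hPR⟩
  obtain ⟨hC, hA5⟩ := h.card_C5 hf h5
  obtain ⟨n, hn1, hn⟩ := sylow_count hPS
  rw [hC] at hn
  have h25 := Subgroup.card_dvd_of_le (le_inf hPC (le_normalizer : P ≤ _))
  rw [h.card_syl5 hP] at h25
  obtain ⟨m, hm⟩ := h25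
  have hn' : n % 5 = 1 := hn1
  rw [hm] at hn ⊢
  have hnm : n * m = 12 := by
    have : n * (25 * m) = 25 * (n * m) := by ring
    omega
  have hcase : n = 6 ∨ n = 1 := by
    have h1 : n ∣ 12 := ⟨m, hnm.symm⟩
    have h2 : n ≤ 12 := Nat.le_of_dvd (by norm_num) h1
    interval_cases n <;> omega
  rcases hcase with rfl | rfl
  · omega
  · exfalso
    have hm12 : m = 12 := by omega
    have hle : centralizer ({f} : Set G) ≤ normalizer (P : Set G) := by
      have h1 : centralizer ({f} : Set G) ⊓ normalizer (P : Set G) = centralizer ({f} : Set G) := by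
        apply Subgroup.eq_of_le_of_card_ge inf_le_left
        rw [hC, hm, hm12]
      rw [← h1]; exact inf_le_right
    haveI hN : (P.subgroupOf (centralizer ({f} : Set G))).Normal :=
      Subgroup.normal_subgroupOf_of_le_normalizer hle
    haveI := A5.simple hA5
    set R := (P.subgroupOf (centralizer ({f} : Set G))).map
      (QuotientGroup.mk' (zpowers (selfC f))) with hR
    haveI hRn : R.Normal := hN.map _ (QuotientGroup.mk'_surjective _)
    have hPc : Nat.card (P.subgroupOf (centralizer ({f} : Set G))) = 25 := by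
      rw [Nat.card_congr (Subgroup.subgroupOfEquivOfLe hPC).toEquiv, h.card_syl5 hP]
    have hker : zpowers (selfC f) ≤ P.subgroupOf (centralizer ({f} : Set G)) := by
      rw [Subgroup.zpowers_le]; exact hfP
    rcases hRn.eq_bot_or_eq_top with hb | ht
    · rw [hR, Subgroup.map_eq_bot_iff, QuotientGroup.ker_mk'] at hb
      have h1 := Subgroup.card_dvd_of_le hb
      rw [hPc, Nat.card_zpowers, orderOf_selfC, h5] at h1
      omega
    · have h1 : P.subgroupOf (centralizer ({f} : Set G)) = ⊤ := by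
        have h2 := congrArg (Subgroup.comap (QuotientGroup.mk' (zpowers (selfC f)))) ht
        rw [hR, Subgroup.comap_map_eq, QuotientGroup.ker_mk', Subgroup.comap_top,
          sup_eq_left.2 hker] at h2
        exact h2
      rw [h1, Subgroup.card_top, hC] at hPc
      omega

theorem J2Loc.cent_P {f : G} (hf : f ∈ L) (h5 : orderOf f = 5) {P : Subgroup G}
    (hP : IsSylowIn 5 P ⊤) (hfP : f ∈ P) : centralizer (P : Set G) = P := by
  haveI : Fact (Nat.Prime 5) := ⟨by norm_num⟩
  haveI : Fact (Nat.Prime 2) := ⟨by norm_num⟩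
  have hPC : P ≤ centralizer (P : Set G) := fun a ha =>
    mem_centralizer_iff.2 (fun b hb => h.comm_syl5 hP b hb a ha)
  have hle : centralizer (P : Set G) ≤ centralizer ({f} : Set G) ⊓ normalizer (P : Set G) := by
    apply le_inf
    · exact Subgroup.centralizer_le (by
        intro x hx
        rw [Set.mem_singleton_iff] at hx
        rw [hx]; exact hfP)
    · exact centralizer_le_norm P
  have h50 := Subgroup.card_dvd_of_le hle
  rw [h.card_CN hf h5 hP hfP] at h50
  have h25 := Subgroup.card_dvd_of_le hPC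
  rw [h.card_syl5 hP] at h25
  have hcase : Nat.card (centralizer (P : Set G)) = 25 ∨ Nat.card (centralizer (P : Set G)) = 50 := by
    obtain ⟨k, hk⟩ := h25
    rw [hk] at h50 ⊢
    have h1 : k ∣ 2 := by
      have : 25 * k ∣ 25 * 2 := h50
      exact Nat.dvd_of_mul_dvd_mul_left (by norm_num) this
    rcases (Nat.dvd_prime Nat.prime_two).1 h1 with rfl | rfl <;> omega
  rcases hcase with h1 | h1
  · exact (Subgroup.eq_of_le_of_card_ge hPC (by rw [h1, h.card_syl5 hP])).symm
  · exfalso
    obtain ⟨s, hs, hs2⟩ := exists_mem_orderOf (p := 2) (K := centralizer (P : Set G))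
      (by rw [h1]; norm_num)
    have hsC : zpowers s ≤ centralizer ({f} : Set G) := by
      rw [Subgroup.zpowers_le]; exact (hle hs).1
    obtain ⟨c, hc, hcE⟩ := (h.sylE hf (Or.inr h5)).exists_conj_le
      (IsPGroup.of_card (n := 1) (by rw [Nat.card_zpowers, hs2, pow_one])) hsC
    have hcs : c * s * c⁻¹ ∈ E := hcE (by
      rw [mem_cj]
      have : c⁻¹ * (c * s * c⁻¹) * c = s := by group
      rw [this]; exact Subgroup.mem_zpowers s)
    have hcs1 : c * s * c⁻¹ ≠ 1 := by
      intro h2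
      have h3 : s = 1 := by
        have : s = c⁻¹ * (c * s * c⁻¹) * c := by group
        rw [this, h2]; group
      rw [h3, orderOf_one] at hs2; omega
    have h4 : cj c P ≤ centralizer ({c * s * c⁻¹} : Set G) := by
      intro y hy
      rw [mem_cj] at hy
      rw [mem_centralizer_singleton_iff]
      have h5 := mem_centralizer_iff.1 hs _ hy
      calc y * (c * s * c⁻¹) = c * ((c⁻¹ * y * c) * s) * c⁻¹ := by group
        _ = c * (s * (c⁻¹ * y * c)) * c⁻¹ := by rw [h5]
        _ = _ := by group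
    have h6 := Subgroup.card_dvd_of_le h4
    rw [h.hCE _ hcs hcs1, card_cj, h.card_syl5 hP, card_sup_comm (fun a ha b hb => h.commE ha hb)
      (by rw [eq_bot_iff, ← h.disj]; exact inf_le_inf_right L h.hEK), h.cardE, A5.card h.eL] at h6
    omega

end j2

end Cfsg.Agent.LE
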