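import Cfsg.Agent.LE.J2Five

/-! Sylow 5-normalizer in a group of Hall-Janko type. -/

set_option autoImplicit false
set_option linter.style.haveILetI false

namespace Cfsg.Agent.LE

open Subgroup
open Cfsg.Agent.H80

section general
variable {G : Type*} [Group G] [Finite G]

theorem card_subgroups_le (P : Subgroup G) (hP : Nat.card P = 25) :
    Nat.card {X : Subgroup G // X ≤ P ∧ Nat.card X = 5} ≤ 6 := by
  haveI : Fact (Nat.Prime 5) := ⟨by norm_num⟩
  have h1 := card_orderOf_eq P 5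
  have h2 : Nat.card {x : G // x ∈ P ∧ orderOf x = 5} ≤ 24 := by
    have h3 : Nat.card {x : P // x ≠ 1} = 24 := by
      classical
      haveI : Fintype P := Fintype.ofFinite _
      rw [Nat.card_eq_fintype_card, Fintype.card_subtype_compl, Fintype.card_subtype_eq,
        ← Nat.card_eq_fintype_card, hP]
    rw [← h3]
    apply Nat.card_le_card_of_injective (fun x : {x : G // x ∈ P ∧ orderOf x = 5} =>
      (⟨⟨x.1, x.2.1⟩, fun hh => by
        have h4 : x.1 = 1 := congrArg Subtype.val hh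
        have h5 := x.2.2
        rw [h4, orderOf_one] at h5
        omega⟩ : {x : P // x ≠ 1}))
    intro a b hab
    have := congrArg (fun y : {x : P // x ≠ 1} => (y.1 : G)) hab
    exact Subtype.ext this
  omega

theorem card_subgroups_eq (P : Subgroup G) (hP : Nat.card P = 25) (h5 : ∀ x ∈ P, x ^ 5 = 1) :
    Nat.card {X : Subgroup G // X ≤ P ∧ Nat.card X = 5} = 6 := by
  haveI : Fact (Nat.Prime 5) := ⟨by norm_num⟩
  have h1 := card_orderOf_eq P 5
  have h2 : Nat.card {x : G // x ∈ P ∧ orderOf x = 5} = 24 := by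
    have h3 : Nat.card {x : P // x ≠ 1} = 24 := by
      classical
      haveI : Fintype P := Fintype.ofFinite _
      rw [Nat.card_eq_fintype_card, Fintype.card_subtype_compl, Fintype.card_subtype_eq,
        ← Nat.card_eq_fintype_card, hP]
    rw [← h3]
    apply Nat.card_congr
    refine ⟨fun x => ⟨⟨x.1, x.2.1⟩, fun hh => by
        have h4 : x.1 = 1 := congrArg Subtype.val hh
        have h5 := x.2.2
        rw [h4, orderOf_one] at h5
        omega⟩, fun x => ⟨x.1.1, x.1.2, ?_⟩, fun _ => rfl, fun _ => rfl⟩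
    have h6 : orderOf x.1.1 ∣ 5 := orderOf_dvd_of_pow_eq_one (h5 _ x.1.2)
    exact ((Nat.dvd_prime (by norm_num)).1 h6).resolve_left (fun h7 => x.2 (Subtype.ext
      (orderOf_eq_one_iff.1 h7)))
  omega

theorem cj_centralizer_of_inv {x l : G} (hlx : l * x * l⁻¹ = x⁻¹) :
    cj l (centralizer ({x} : Set G)) = centralizer ({x} : Set G) := by
  apply Subgroup.eq_of_le_of_card_ge _ (by rw [card_cj])
  intro y hy
  rw [mem_cj, mem_centralizer_singleton_iff] at hy
  rw [mem_centralizer_singleton_iff]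
  have h1 : Commute y x⁻¹ := by
    change y * x⁻¹ = x⁻¹ * y
    rw [← hlx]
    calc y * (l * x * l⁻¹) = l * (l⁻¹ * y * l * x) * l⁻¹ := by group
      _ = l * (x * (l⁻¹ * y * l)) * l⁻¹ := by rw [hy]
      _ = l * x * l⁻¹ * y := by group
  exact (Commute.inv_right_iff.1 h1).eq

end general

section j2
variable {G : Type*} [Group G] [Finite G] {z t : G} {E L K : Subgroup G} (h : J2Loc z t E L K)
include h

theorem J2Loc.card_NN {f : G} (hf : f ∈ L) (h5 : orderOf f = 5) {P : Subgroup G}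
    (hP : IsSylowIn 5 P ⊤) (hfP : f ∈ P) :
    Nat.card ↥(normalizer (P : Set G) ⊓ normalizer ((zpowers f : Subgroup G) : Set G)) = 100 := by
  haveI : Fact (Nat.Prime 5) := ⟨by norm_num⟩
  have hPC : P ≤ centralizer ({f} : Set G) := fun a ha =>
    mem_centralizer_singleton_iff.2 (h.comm_syl5 hP a ha f hfP)
  have hPS : IsSylowIn 5 P (centralizer ({f} : Set G)) :=
    ⟨hP.1, hPC, fun R hR _ hPR => hP.2.2 R hR le_top hPR⟩
  rw [card_two_mul (x := f)]
  · have h1 : normalizer (P : Set G) ⊓ normalizer ((zpowers f : Subgroup G) : Set G) ⊓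
        centralizer ({f} : Set G) = centralizer ({f} : Set G) ⊓ normalizer (P : Set G) := by
      apply le_antisymm
      · exact le_inf inf_le_right (inf_le_left.trans inf_le_left)
      · apply le_inf (le_inf inf_le_right _) inf_le_left
        refine inf_le_left.trans ?_
        rw [← centralizer_zpowers]
        exact centralizer_le_norm _
    rw [h1, h.card_CN hf h5 hP hfP]
  · intro g hg
    exact h.N_conj hf (Or.inr h5) (mem_norm_zpowers.1 hg.2)
  · obtain ⟨l, hl, hl1, hl2, hlf⟩ := h.exists_inv hf (Or.inr h5)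
    have hlP : IsSylowIn 5 (cj l P) (centralizer ({f} : Set G)) := by
      have h1 := hPS.cj l
      have h2 := cj_centralizer_of_inv hlf
      rwa [h2] at h1
    obtain ⟨c, hc, hcP⟩ := hlP.exists_conj hPS
    have hcf := mem_centralizer_singleton_iff.1 hc
    have hinv : c * l * f * (c * l)⁻¹ = f⁻¹ := by
      have h7 : Commute c f := hcf
      calc c * l * f * (c * l)⁻¹ = c * (l * f * l⁻¹) * c⁻¹ := by group
        _ = c * f⁻¹ * c⁻¹ := by rw [hlf]
        _ = f⁻¹ := by rw [h7.inv_right.eq]; group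
    refine ⟨c * l, Subgroup.mem_inf.2 ⟨?_, ?_⟩, hinv⟩
    · rw [mem_normalizer_iff_cj, cj_mul, hcP]
    · rw [mem_norm_zpowers, hinv]
      exact inv_mem (Subgroup.mem_zpowers f)
  · exact ne_inv_of_order (Or.inr h5)

/-- Main counting for the Sylow 5-normalizer. -/
theorem J2Loc.card_NP {f : G} (hf : f ∈ L) (h5 : orderOf f = 5) {P : Subgroup G}
    (hP : IsSylowIn 5 P ⊤) (hfP : f ∈ P) :
    Nat.card ↥(normalizer (P : Set G)) = 300 ∧
      Nat.card (cjSet (normalizer (P : Set G)) (zpowers f)) = 3 := by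
  haveI : Fact (Nat.Prime 5) := ⟨by norm_num⟩
  have h1 := card_cjSet (normalizer (P : Set G)) (zpowers f)
  rw [h.card_NN hf h5 hP hfP] at h1
  obtain ⟨n, hn1, hn⟩ := sylow_count hP
  rw [top_inf_eq, h.card_top, ← h1] at hn
  have hle : Nat.card (cjSet (normalizer (P : Set G)) (zpowers f)) ≤ 6 := by
    refine le_trans ?_ (card_subgroups_le P (h.card_syl5 hP))
    apply Nat.card_le_card_of_injective (fun X : cjSet (normalizer (P : Set G)) (zpowers f) =>
      (⟨X.1, ?_⟩ : {X : Subgroup G // X ≤ P ∧ Nat.card X = 5}))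
    · intro a b hab
      have := congrArg (fun Z : {X : Subgroup G // X ≤ P ∧ Nat.card X = 5} => Z.1) hab
      exact Subtype.ext this
    · obtain ⟨k, hk, hkX⟩ := X.2
      rw [← hkX]
      refine ⟨?_, by rw [card_cj, Nat.card_zpowers, h5]⟩
      have h2 := cj_mono k (Subgroup.zpowers_le.2 hfP)
      rwa [mem_normalizer_iff_cj.1 hk] at h2
  have hn1' : n % 5 = 1 := hn1
  generalize Nat.card (cjSet (normalizer (P : Set G)) (zpowers f)) = m at *
  have hm : m = 3 := by
    have h2 : n * m = 6048 := by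
      have : n * (m * 100) = 100 * (n * m) := by ring
      omega
    have h3 : (n * m) % 5 = 3 := by rw [h2]
    rw [Nat.mul_mod, hn1', one_mul, Nat.mod_mod] at h3
    omega
  subst hm
  exact ⟨by rw [← h1], rfl⟩

/-- elements of order 3 of `N(P)` fix no subgroup of order 5 of `P` -/
theorem J2Loc.fpf3 {f : G} (hf : f ∈ L) (h5 : orderOf f = 5) {P : Subgroup G}
    (hP : IsSylowIn 5 P ⊤) (hfP : f ∈ P) (hexp : ∀ x ∈ P, x ^ 5 = 1) {g : G}
    (hg : g ∈ normalizer (P : Set G)) (hg3 : orderOf g = 3) {X : Subgroup G} (hXP : X ≤ P)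
    (hX : Nat.card X = 5) : cj g X ≠ X := by
  classical
  haveI : Fact (Nat.Prime 5) := ⟨by norm_num⟩
  intro hfix
  -- g centralizes every fixed subgroup
  have hcent : ∀ X : Subgroup G, Nat.card X = 5 → cj g X = X → ∀ x ∈ X, g * x = x * g := by
    intro X hX hfix x hx
    by_cases hx1 : x = 1
    · rw [hx1]; group
    have hxo : orderOf x = 5 := by
      have h1 : orderOf x ∣ 5 := by
        have := Subgroup.orderOf_dvd_natCard _ hx
        rwa [hX] at this
      exact ((Nat.dvd_prime (by norm_num)).1 h1).resolve_left (fun h2 => hx1 (orderOf_eq_one_iff.1 h2))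
    have hXz : zpowers x = X := by
      apply Subgroup.eq_of_le_of_card_ge (Subgroup.zpowers_le.2 hx)
      rw [hX, Nat.card_zpowers, hxo]
    have hgx : g * x * g⁻¹ ∈ zpowers x := by
      rw [hXz]; rw [← hfix, mem_cj]
      have : g⁻¹ * (g * x * g⁻¹) * g = x := by group
      rw [this]; exact hx
    obtain ⟨k, hk⟩ := Subgroup.mem_zpowers_iff.1 hgx
    -- g^3 = 1 gives x^(k^3) = x
    have hg3' : g ^ 3 = 1 := by rw [← hg3]; exact pow_orderOf_eq_one g
    have e1 : g * x * g⁻¹ = x ^ k := hk.symm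
    have e2 : ∀ n : ℤ, g * x ^ n * g⁻¹ = x ^ (k * n) := by
      intro n
      rw [← conj_zpow, e1, ← zpow_mul]
    have e3 : g ^ 3 * x * (g ^ 3)⁻¹ = x ^ (k * (k * k)) := by
      have : g ^ 3 * x * (g ^ 3)⁻¹ = g * (g * (g * x * g⁻¹) * g⁻¹) * g⁻¹ := by
        rw [pow_succ, pow_two]; group
      rw [this, e1, e2, e2]
    rw [hg3'] at e3
    have e4 : x ^ (k * (k * k) - 1) = 1 := by
      rw [zpow_sub, ← e3]; simp
    have e5 : (5 : ℤ) ∣ k * (k * k) - 1 := by
      have := orderOf_dvd_iff_zpow_eq_one.2 e4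
      rwa [hxo] at this
    have e6 : (5 : ℤ) ∣ k - 1 := by
      have h7 : k % 5 = 0 ∨ k % 5 = 1 ∨ k % 5 = 2 ∨ k % 5 = 3 ∨ k % 5 = 4 := by omega
      have h8 : (k * (k * k)) % 5 = 1 := by omega
      rcases h7 with h7 | h7 | h7 | h7 | h7 <;> simp [Int.mul_emod, h7] at h8 ⊢ <;> omega
    have e7 : x ^ k = x := by
      have : x ^ (k - 1) = 1 := by
        rw [← orderOf_dvd_iff_zpow_eq_one, hxo]; exact e6
      rw [zpow_sub_one] at this
      exact mul_inv_eq_one.1 this
    rw [e7] at e1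
    calc g * x = g * x * g⁻¹ * g := by group
      _ = x * g := by rw [e1]
  -- a second fixed subgroup
  have hs6 := card_subgroups_eq P (h.card_syl5 hP) hexp
  let S := {X : Subgroup G // X ≤ P ∧ Nat.card X = 5}
  have hact : ∀ X : S, cj g X.1 ≤ P ∧ Nat.card (cj g X.1) = 5 := fun X =>
    ⟨by have h2 := cj_mono g X.2.1; rwa [mem_normalizer_iff_cj.1 hg] at h2,
      by rw [card_cj]; exact X.2.2⟩
  let φ : S → S := fun X => ⟨cj g X.1, hact X⟩
  have hφ3 : ∀ X : S, φ (φ (φ X)) = X := by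
    intro X
    apply Subtype.ext
    change cj g (cj g (cj g X.1)) = X.1
    rw [← cj_mul, ← cj_mul]
    have : g * (g * g) = 1 := by
      have hg3' : g ^ 3 = 1 := by rw [← hg3]; exact pow_orderOf_eq_one g
      rw [← hg3']; simp [pow_succ, mul_assoc]
    rw [show g * g * g = g * (g * g) by group, this, cj_one]
  haveI : Finite S := Subtype.finite
  haveI : Fintype S := Fintype.ofFinite _
  haveI : Fact (Nat.Prime 3) := ⟨by norm_num⟩
  let e : Function.End S := φ
  have he3 : e ^ 3 = 1 := by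
    funext X
    exact hφ3 X
  have hfix2 : ∃ Y : S, Y ≠ ⟨X, hXP, hX⟩ ∧ φ Y = Y := by
    have hmod := Equiv.Perm.card_fixedPoints_modEq (α := S) (f := e) (n := 1) (p := 3)
      (by rw [pow_one]; exact he3)
    by_contra hcon
    push Not at hcon
    have h7 : Fintype.card (Function.fixedPoints e) = 1 := by
      rw [Fintype.card_eq_one_iff]
      refine ⟨⟨⟨X, hXP, hX⟩, Subtype.ext hfix⟩, ?_⟩
      rintro ⟨Y, hY⟩
      apply Subtype.ext
      by_contra hne
      exact hcon Y hne hY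
    rw [h7, ← Nat.card_eq_fintype_card] at hmod
    change Nat.card S ≡ 1 [MOD 3] at hmod
    rw [hs6] at hmod
    exact absurd hmod (by decide)
  obtain ⟨Y, hYX, hYfix⟩ := hfix2
  have hYfix' : cj g Y.1 = Y.1 := congrArg Subtype.val hYfix
  have hgP : g ∈ centralizer (P : Set G) := by
    have h8 : X ⊔ Y.1 ≤ centralizer ({g} : Set G) := by
      apply sup_le
      · intro x hx
        exact mem_centralizer_singleton_iff.2 (hcent X hX hfix x hx).symm
      · intro x hx
        exact mem_centralizer_singleton_iff.2 (hcent Y.1 Y.2.2 hYfix' x hx).symm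
    have h9 : X ⊔ Y.1 = P := by
      have hle : X ⊔ Y.1 ≤ P := sup_le hXP Y.2.1
      apply Subgroup.eq_of_le_of_card_ge hle
      have h10 := Subgroup.card_dvd_of_le hle
      have h11 := Subgroup.card_dvd_of_le (le_sup_left : X ≤ X ⊔ Y.1)
      rw [h.card_syl5 hP] at h10 ⊢
      rw [hX] at h11
      obtain ⟨k, hk⟩ := h11
      rw [hk] at h10 ⊢
      have h12 : k ∣ 5 := by
        have : 5 * k ∣ 5 * 5 := h10
        exact Nat.dvd_of_mul_dvd_mul_left (by norm_num) this
      rcases (Nat.dvd_prime (by norm_num)).1 h12 with rfl | rfl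
      · exfalso
        have h13 : X = X ⊔ Y.1 := Subgroup.eq_of_le_of_card_ge le_sup_left (by rw [hk, hX])
        have h14 : Y.1 ≤ X := by rw [h13]; exact le_sup_right
        have h15 : Y.1 = X := Subgroup.eq_of_le_of_card_ge h14 (by rw [hX, Y.2.2])
        exact hYX (Subtype.ext h15)
      · norm_num
    rw [h9] at h8
    rw [mem_centralizer_iff]
    intro x hx
    exact mem_centralizer_singleton_iff.1 (h8 hx)
  rw [h.cent_P hf h5 hP hfP] at hgP
  have h16 := Subgroup.orderOf_dvd_natCard _ hgP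
  rw [h.card_syl5 hP, hg3] at h16
  omega

theorem J2Loc.exp5 {f : G} (hf : f ∈ L) (h5 : orderOf f = 5) {P : Subgroup G}
    (hP : IsSylowIn 5 P ⊤) (hfP : f ∈ P) : ∀ x ∈ P, x ^ 5 = 1 := by
  classical
  haveI : Fact (Nat.Prime 5) := ⟨by norm_num⟩
  have h3 := (h.card_NP hf h5 hP hfP).2
  have hX : Nat.card (zpowers f) = 5 := by rw [Nat.card_zpowers, h5]
  obtain ⟨Y, hYC, hY⟩ : ∃ Y ∈ cjSet (normalizer (P : Set G)) (zpowers f), Y ≠ zpowers f := by
    by_contra hcon
    push Not at hcon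
    have h4 : Nat.card (cjSet (normalizer (P : Set G)) (zpowers f)) ≤ 1 := by
      haveI : Subsingleton (cjSet (normalizer (P : Set G)) (zpowers f)) :=
        ⟨fun a b => Subtype.ext ((hcon a.1 a.2).trans (hcon b.1 b.2).symm)⟩
      exact Finite.card_le_one_iff_subsingleton.2 inferInstance
    omega
  obtain ⟨k, hk, rfl⟩ := hYC
  have hYP : cj k (zpowers f) ≤ P := by
    have h2 := cj_mono k (Subgroup.zpowers_le.2 hfP)
    rwa [mem_normalizer_iff_cj.1 hk] at h2
  have hXP : zpowers f ≤ P := Subgroup.zpowers_le.2 hfP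
  have hYc : Nat.card (cj k (zpowers f)) = 5 := by rw [card_cj, hX]
  have h9 : zpowers f ⊔ cj k (zpowers f) = P := by
    have hle : zpowers f ⊔ cj k (zpowers f) ≤ P := sup_le hXP hYP
    apply Subgroup.eq_of_le_of_card_ge hle
    have h10 := Subgroup.card_dvd_of_le hle
    have h11 := Subgroup.card_dvd_of_le (le_sup_left : zpowers f ≤ zpowers f ⊔ cj k (zpowers f))
    rw [h.card_syl5 hP] at h10 ⊢
    rw [hX] at h11
    obtain ⟨k', hk'⟩ := h11
    rw [hk'] at h10 ⊢
    have h12 : k' ∣ 5 := by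
      have : 5 * k' ∣ 5 * 5 := h10
      exact Nat.dvd_of_mul_dvd_mul_left (by norm_num) this
    rcases (Nat.dvd_prime (by norm_num)).1 h12 with rfl | rfl
    · exfalso
      have h13 : zpowers f = zpowers f ⊔ cj k (zpowers f) :=
        Subgroup.eq_of_le_of_card_ge le_sup_left (by rw [hk', hX])
      have h14 : cj k (zpowers f) ≤ zpowers f := by
        have h14' : cj k (zpowers f) ≤ zpowers f ⊔ cj k (zpowers f) := le_sup_right
        rwa [← h13] at h14'
      exact hY (Subgroup.eq_of_le_of_card_ge h14 (by rw [hX, hYc]))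
    · norm_num
  intro x hx
  rw [← h9, mem_sup_comm (fun a ha b hb => h.comm_syl5 hP a (hXP ha) b (hYP hb))] at hx
  obtain ⟨a, ha, b, hb, rfl⟩ := hx
  have h5' : ∀ (Z : Subgroup G), Nat.card Z = 5 → ∀ a ∈ Z, a ^ 5 = 1 := by
    intro Z hZ a ha
    have h1 : orderOf a ∣ 5 := by
      have := Subgroup.orderOf_dvd_natCard _ ha
      rwa [hZ] at this
    exact orderOf_dvd_iff_pow_eq_one.1 h1
  have hc : Commute a b := h.comm_syl5 hP a (hXP ha) b (hYP hb)
  rw [hc.mul_pow, h5' _ hX a ha, h5' _ hYc b hb, one_mul]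

/-- The two classes of subgroups of order 5. -/
theorem J2Loc.two_classes5 {f : G} (hf : f ∈ L) (h5 : orderOf f = 5) {P : Subgroup G}
    (hP : IsSylowIn 5 P ⊤) (hfP : f ∈ P) : ∃ Y : Subgroup G, Y ≤ P ∧ Nat.card Y = 5 ∧
      Nat.card (cjSet (normalizer (P : Set G)) Y) = 3 ∧
      (∀ g : G, cj g (zpowers f) ≠ Y) ∧
      ∀ W : Subgroup G, Nat.card W = 5 → ∃ g : G, cj g W = zpowers f ∨ cj g W = Y := by
  classical
  haveI : Fact (Nat.Prime 5) := ⟨by norm_num⟩
  haveI : Fact (Nat.Prime 3) := ⟨by norm_num⟩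
  obtain ⟨hNP, h3⟩ := h.card_NP hf h5 hP hfP
  have hexp := h.exp5 hf h5 hP hfP
  have hX : Nat.card (zpowers f) = 5 := by rw [Nat.card_zpowers, h5]
  have hXP : zpowers f ≤ P := Subgroup.zpowers_le.2 hfP
  let S : Set (Subgroup G) := {X | X ≤ P ∧ Nat.card X = 5}
  let C : Set (Subgroup G) := cjSet (normalizer (P : Set G)) (zpowers f)
  have hSc : S.ncard = 6 := card_subgroups_eq P (h.card_syl5 hP) hexp
  have hCc : C.ncard = 3 := h3
  have hstab : ∀ n ∈ normalizer (P : Set G), ∀ Z ∈ S, cj n Z ∈ S := by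
    rintro n hn Z ⟨hZ1, hZ2⟩
    refine ⟨?_, by rw [card_cj]; exact hZ2⟩
    have h2 := cj_mono n hZ1
    rwa [mem_normalizer_iff_cj.1 hn] at h2
  have hCS : C ⊆ S := by
    rintro _ ⟨n, hn, rfl⟩
    exact hstab n hn _ ⟨hXP, hX⟩
  have hSC : (S \ C).ncard = 3 := by
    rw [Set.ncard_sdiff hCS, hSc, hCc]
  obtain ⟨Y, hY⟩ : (S \ C).Nonempty := by
    rw [← Set.ncard_pos, hSC]; norm_num
  obtain ⟨g, hg, hg3⟩ := exists_mem_orderOf (p := 3) (K := normalizer (P : Set G))
    (by rw [hNP]; norm_num)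
  have hCstab : ∀ n ∈ normalizer (P : Set G), ∀ Z ∉ C, cj n Z ∉ C := by
    rintro n hn Z hZ ⟨m, hm, hmZ⟩
    apply hZ
    refine ⟨n⁻¹ * m, mul_mem (inv_mem hn) hm, ?_⟩
    rw [cj_mul, hmZ, cj_inv_cj]
  have hgg : g * g ∈ normalizer (P : Set G) := mul_mem hg hg
  have hg3' : g * g * g = 1 := by
    have : g ^ 3 = 1 := by rw [← hg3]; exact pow_orderOf_eq_one g
    rwa [pow_succ, pow_two] at this
  have d1 : cj g Y ≠ Y := h.fpf3 hf h5 hP hfP hexp hg hg3 hY.1.1 hY.1.2
  have d2 : cj (g * g) Y ≠ Y := by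
    intro h1
    apply d1
    have h2 : cj (g * g) (cj (g * g) Y) = Y := by rw [h1, h1]
    rw [← cj_mul] at h2
    have h4 : g * g * (g * g) = g := by
      calc g * g * (g * g) = g * g * g * g := by group
        _ = g := by rw [hg3', one_mul]
    rwa [h4] at h2
  have d3 : cj (g * g) Y ≠ cj g Y := by
    intro h1
    rw [cj_mul] at h1
    exact d1 (cj_injective g h1)
  have hthree : ({Y, cj g Y, cj (g * g) Y} : Set (Subgroup G)) = S \ C := by
    refine Set.eq_of_subset_of_ncard_le ?_ ?_ (Set.toFinite _)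
    · rintro Z (rfl | rfl | rfl)
      · exact hY
      · exact ⟨hstab g hg _ hY.1, hCstab g hg _ hY.2⟩
      · exact ⟨hstab _ hgg _ hY.1, hCstab _ hgg _ hY.2⟩
    · rw [hSC]
      rw [Set.ncard_insert_of_notMem (by
        rintro (h1 | h1)
        · exact d1 h1.symm
        · exact d2 h1.symm), Set.ncard_pair (fun h1 => d3 h1.symm)]
  refine ⟨Y, hY.1.1, hY.1.2, ?_, ?_, ?_⟩
  · have h6 : cjSet (normalizer (P : Set G)) Y = S \ C := by
      apply Set.Subset.antisymm
      · rintro _ ⟨n, hn, rfl⟩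
        exact ⟨hstab n hn _ hY.1, hCstab n hn _ hY.2⟩
      · rw [← hthree]
        rintro Z (rfl | rfl | rfl)
        · exact ⟨1, one_mem _, cj_one _⟩
        · exact ⟨g, hg, rfl⟩
        · exact ⟨g * g, hgg, rfl⟩
    rw [h6]; exact hSC
  · intro a ha
    obtain ⟨n, hn, hnY⟩ := burnside_fusion hP (h.comm_syl5 hP) hXP hY.1.1 ha
    exact hY.2 ⟨n, hn, hnY⟩
  · intro W hW
    obtain ⟨k, -, hk⟩ := hP.exists_conj_le (X := W) (IsPGroup.of_card (n := 1) (by rw [hW, pow_one]))
      le_top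
    have hkS : cj k W ∈ S := ⟨hk, by rw [card_cj, hW]⟩
    by_cases hkC : cj k W ∈ C
    · obtain ⟨n, hn, hnW⟩ := hkC
      refine ⟨n⁻¹ * k, Or.inl ?_⟩
      rw [cj_mul, ← hnW, cj_inv_cj]
    · have h7 : cj k W ∈ ({Y, cj g Y, cj (g * g) Y} : Set (Subgroup G)) := by
        rw [hthree]; exact ⟨hkS, hkC⟩
      rcases h7 with h8 | h8 | h8
      · exact ⟨k, Or.inr h8⟩
      · refine ⟨g⁻¹ * k, Or.inr ?_⟩
        rw [cj_mul, h8, cj_inv_cj]
      · refine ⟨(g * g)⁻¹ * k, Or.inr ?_⟩
        rw [cj_mul, h8, cj_inv_cj]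

omit [Finite G] h in
theorem centralizer_cj (g : G) (P : Subgroup G) :
    centralizer ((cj g P : Subgroup G) : Set G) = cj g (centralizer (P : Set G)) := by
  ext x
  rw [mem_cj, mem_centralizer_iff, mem_centralizer_iff]
  constructor
  · intro hx a ha
    have h1 := hx (g * a * g⁻¹) (by
      rw [SetLike.mem_coe, mem_cj]
      have : g⁻¹ * (g * a * g⁻¹) * g = a := by group
      rw [this]; exact ha)
    calc a * (g⁻¹ * x * g) = g⁻¹ * (g * a * g⁻¹ * x) * g := by group
      _ = g⁻¹ * (x * (g * a * g⁻¹)) * g := by rw [h1]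
      _ = g⁻¹ * x * g * a := by group
  · intro hx a ha
    rw [SetLike.mem_coe, mem_cj] at ha
    have h1 := hx _ ha
    calc a * x = g * (g⁻¹ * a * g * (g⁻¹ * x * g)) * g⁻¹ := by group
      _ = g * (g⁻¹ * x * g * (g⁻¹ * a * g)) * g⁻¹ := by rw [h1]
      _ = x * a := by group

/-- The statement of S1722. -/
theorem J2Loc.sylow_five (P : Sylow 5 G) :
    Subgroup.centralizer ((P : Subgroup G) : Set G) = P ∧ Nat.card P = 25 ∧
    Nat.card (Subgroup.normalizer ((P : Subgroup G) : Set G)) = 300 ∧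
    ∃ X Y : Subgroup G, Nat.card X = 5 ∧ Nat.card Y = 5 ∧
      (∀ g : G, X.map (MulAut.conj g).toMonoidHom ≠ Y) ∧
      ∀ W : Subgroup G, Nat.card W = 5 → ∃ g : G,
        W.map (MulAut.conj g).toMonoidHom = X ∨ W.map (MulAut.conj g).toMonoidHom = Y := by
  haveI : Fact (Nat.Prime 5) := ⟨by norm_num⟩
  obtain ⟨f, hf5⟩ := A5.exists_five h.eL
  have h5 : orderOf (f : G) = 5 := by rw [← hf5]; exact Subgroup.orderOf_coe f
  have hfp : IsPGroup 5 (zpowers (f : G)) :=
    IsPGroup.of_card (n := 1) (by rw [Nat.card_zpowers, h5, pow_one])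
  obtain ⟨P', hP', hfP⟩ := exists_isSylowIn_ge hfp (le_top : zpowers (f : G) ≤ ⊤)
  have hfP' := hfP (Subgroup.mem_zpowers (f : G))
  obtain ⟨k, -, hk⟩ := hP'.exists_conj (isSylowIn_top P)
  refine ⟨?_, h.card_syl5 (isSylowIn_top P), ?_, ?_⟩
  · rw [← hk, centralizer_cj, h.cent_P f.2 h5 hP' hfP']
  · rw [← hk, normalizer_cj, card_cj]
    exact (h.card_NP f.2 h5 hP' hfP').1
  · obtain ⟨Y, -, hY, -, h1, h2⟩ := h.two_classes5 f.2 h5 hP' hfP'
    exact ⟨zpowers (f : G), Y, by rw [Nat.card_zpowers, h5], hY, h1, h2⟩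

end j2

end Cfsg.Agent.LE
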