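import Cfsg.Agent.LE.J2FiveB

/-! Elements of order 3 and 5 in a group of Hall-Janko type. -/

set_option autoImplicit false
set_option linter.style.haveILetI false

namespace Cfsg.Agent.LE

open Subgroup
open Cfsg.Agent.H80

section general
variable {G : Type*} [Group G] [Finite G]

omit [Finite G] in
theorem card_centralizer_conj {x y : G} (hxy : IsConj x y) :
    Nat.card (centralizer ({x} : Set G)) = Nat.card (centralizer ({y} : Set G)) := by
  obtain ⟨g, hg⟩ := isConj_iff.1 hxy
  rw [← hg, ← centralizer_zpowers, ← centralizer_zpowers (g * x * g⁻¹)]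
  have h1 : zpowers (g * x * g⁻¹) = cj g (zpowers x) := by
    ext a
    rw [mem_cj, Subgroup.mem_zpowers_iff, Subgroup.mem_zpowers_iff]
    constructor
    · rintro ⟨k, rfl⟩; exact ⟨k, by rw [conj_zpow]; group⟩
    · rintro ⟨k, hk⟩; exact ⟨k, by rw [conj_zpow, hk]; group⟩
  rw [h1, centralizer_cj, card_cj]

omit [Finite G] in
theorem zpowers_conj (g x : G) : zpowers (g * x * g⁻¹) = cj g (zpowers x) := by
  ext a
  rw [mem_cj, Subgroup.mem_zpowers_iff, Subgroup.mem_zpowers_iff]
  constructor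
  · rintro ⟨k, rfl⟩; exact ⟨k, by rw [conj_zpow]; group⟩
  · rintro ⟨k, hk⟩; exact ⟨k, by rw [conj_zpow, hk]; group⟩

omit [Finite G] in
theorem card_centralizer_of_cj {x y g : G} (h : cj g (zpowers x) = zpowers y) :
    Nat.card (centralizer ({x} : Set G)) = Nat.card (centralizer ({y} : Set G)) := by
  rw [← centralizer_zpowers, ← centralizer_zpowers y, ← h, centralizer_cj, card_cj]

/-- Groups with a self-centralizing involution. -/
theorem ce2 {s : G} (hs : s * s = 1) (hs1 : s ≠ 1) (h : ∀ g : G, g * s = s * g → g = 1 ∨ g = s) :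
    ∃ O : Subgroup G, O.index = 2 ∧ Odd (Nat.card O) ∧ ∀ a ∈ O, ∀ b ∈ O, a * b = b * a := by
  haveI : Fact (Nat.Prime 2) := ⟨Nat.prime_two⟩
  have hs2 : orderOf s = 2 := orderOf_eq_prime (by rw [pow_two]; exact hs) hs1
  have hTp : IsPGroup 2 (zpowers s) := IsPGroup.of_card (n := 1) (by rw [Nat.card_zpowers, hs2, pow_one])
  have hT : ∀ R : Subgroup G, IsPGroup 2 R → zpowers s ≤ R → R = zpowers s := by
    intro R hR hsR
    have hsR' := hsR (Subgroup.mem_zpowers s)
    haveI : Nontrivial R := ⟨⟨⟨s, hsR'⟩, 1, fun hh => hs1 (congrArg Subtype.val hh)⟩⟩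
    haveI := hR.center_nontrivial
    obtain ⟨c, hc⟩ := exists_ne (1 : Subgroup.center R)
    have hc1 : ((c : R) : G) ≠ 1 := fun hh => hc (Subtype.ext (Subtype.ext hh))
    have hcs : ((c : R) : G) * s = s * c := by
      have := Subgroup.mem_center_iff.1 c.2 ⟨s, hsR'⟩
      exact (congrArg Subtype.val this).symm
    have hceq : ((c : R) : G) = s := (h _ hcs).resolve_left hc1
    apply le_antisymm _ hsR
    intro r hr
    have h1 := Subgroup.mem_center_iff.1 c.2 ⟨r, hr⟩
    have h2 : r * s = s * r := by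
      have := congrArg Subtype.val h1
      rwa [Subgroup.coe_mul, Subgroup.coe_mul, hceq] at this
    rcases h r h2 with h3 | h3
    · rw [h3]; exact one_mem _
    · rw [h3]; exact Subgroup.mem_zpowers s
  obtain ⟨T, hTs⟩ := hTp.exists_le_sylow
  have hTe : (T : Subgroup G) = zpowers s := hT _ T.2 hTs
  have hTc : Nat.card T = 2 := by
    change Nat.card (T : Subgroup G) = 2
    rw [hTe, Nat.card_zpowers, hs2]
  have hT2 := T.card_eq_multiplicity
  rw [hTc] at hT2
  have hfac : (Nat.card G).factorization 2 = 1 := by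
    have : 2 ^ 1 = 2 ^ (Nat.card G).factorization 2 := by rw [pow_one]; exact hT2
    exact (Nat.pow_right_injective le_rfl this).symm
  have heven : Even (Nat.card G) := by
    rw [even_iff_two_dvd, ← hs2]; exact orderOf_dvd_natCard s
  haveI : IsCyclic T := isCyclic_of_prime_card hTc
  obtain ⟨O, hO⟩ := exists_index_two_of_cyclic_sylow heven T inferInstance
  have hcard := O.card_mul_index
  rw [hO] at hcard
  have hOodd : Odd (Nat.card O) := by
    rw [← Nat.not_even_iff_odd, even_iff_two_dvd]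
    rintro ⟨k, hk⟩
    have h1 : Nat.card G = 2 ^ 2 * k := by rw [← hcard, hk]; ring
    have hk0 : k ≠ 0 := by
      rintro rfl
      rw [mul_zero] at hk
      exact (Nat.card_pos (α := O)).ne' hk
    rw [h1, Nat.factorization_mul (by norm_num) hk0, Nat.prime_two.factorization_pow] at hfac
    simp at hfac
    omega
  refine ⟨O, hO, hOodd, ?_⟩
  haveI hOn : O.Normal := Subgroup.normal_of_index_eq_two hO
  have hinv : ∀ n ∈ O, s * n * s⁻¹ = n⁻¹ := by
    apply inverts_of_fpf hs (fun n hn => hOn.conj_mem n hn s)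
    intro n hn hc
    rcases h n hc with h1 | h1
    · exact h1
    · exfalso
      have h2 : orderOf s ∣ Nat.card O := by rw [← h1]; exact Subgroup.orderOf_dvd_natCard O hn
      rw [hs2] at h2
      exact (Nat.not_even_iff_odd.2 hOodd) (even_iff_two_dvd.2 h2)
  intro a ha b hb
  have h1 := hinv a ha
  have h2 := hinv b hb
  have h3 := hinv (a * b) (O.mul_mem ha hb)
  have h4 : s * (a * b) * s⁻¹ = a⁻¹ * b⁻¹ := by rw [← h1, ← h2]; group
  rw [h4, mul_inv_rev] at h3
  have h5 := congrArg (·⁻¹) h3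
  simp only [mul_inv_rev, inv_inv] at h5
  exact h5.symm

end general

section j2
variable {G : Type*} [Group G] [Finite G] {z t : G} {E L K : Subgroup G} (h : J2Loc z t E L K)
include h

/-- involutions of `C(x)` are conjugate to `t` -/
theorem J2Loc.inv_C {x : G} (hx : x ∈ L) (hp : orderOf x = 3 ∨ orderOf x = 5) {s : G}
    (hs : orderOf s = 2) (hsx : s * x = x * s) : IsConj s t := by
  haveI : Fact (Nat.Prime 2) := ⟨Nat.prime_two⟩
  have hsC : zpowers s ≤ centralizer ({x} : Set G) := by
    rw [Subgroup.zpowers_le]; exact mem_centralizer_singleton_iff.2 hsx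
  obtain ⟨c, hc, hcE⟩ := (h.sylE hx hp).exists_conj_le
    (IsPGroup.of_card (n := 1) (by rw [Nat.card_zpowers, hs, pow_one])) hsC
  have hcs : c * s * c⁻¹ ∈ E := hcE (by
    rw [mem_cj]
    have : c⁻¹ * (c * s * c⁻¹) * c = s := by group
    rw [this]; exact Subgroup.mem_zpowers s)
  have hcs1 : c * s * c⁻¹ ≠ 1 := by
    intro h2
    have h3 : s = 1 := by
      have : s = c⁻¹ * (c * s * c⁻¹) * c := by group
      rw [this, h2]; group
    rw [h3, orderOf_one] at hs; omega
  exact (isConj_iff.2 ⟨c, rfl⟩ : IsConj s (c * s * c⁻¹)).trans (h.hEt _ hcs hcs1)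

theorem J2Loc.not_conj_z {x : G} (hx : x ∈ L) (hp : orderOf x = 3 ∨ orderOf x = 5) {w : G}
    (hw : w * z = z * w) (g : G) : cj g (zpowers w) ≠ zpowers x := by
  intro hg
  have h1 : g * z * g⁻¹ ∈ centralizer ({x} : Set G) := by
    rw [← centralizer_zpowers, ← hg, centralizer_cj, mem_cj, centralizer_zpowers,
      mem_centralizer_singleton_iff]
    have : g⁻¹ * (g * z * g⁻¹) * g = z := by group
    rw [this]; exact hw.symm
  have h2 : orderOf (g * z * g⁻¹) = 2 := by
    rw [← h.hz]
    exact (MulAut.conj g).orderOf_eq z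
  have h3 := h.inv_C hx hp h2 (mem_centralizer_singleton_iff.1 h1)
  exact h.hzt ((isConj_iff.2 ⟨g, rfl⟩ : IsConj z (g * z * g⁻¹)).trans h3)

theorem J2Loc.card_C5z {x : G} (hx : orderOf x = 5) (hxz : x * z = z * x) :
    Nat.card (centralizer ({x} : Set G)) = 50 := by
  classical
  haveI : Fact (Nat.Prime 5) := ⟨by norm_num⟩
  obtain ⟨f, hf5⟩ := A5.exists_five h.eL
  have h5 : orderOf (f : G) = 5 := by rw [← hf5]; exact Subgroup.orderOf_coe f
  have hfp : IsPGroup 5 (zpowers (f : G)) :=
    IsPGroup.of_card (n := 1) (by rw [Nat.card_zpowers, h5, pow_one])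
  obtain ⟨P', hP', hfP⟩ := exists_isSylowIn_ge hfp (le_top : zpowers (f : G) ≤ ⊤)
  have hfP' := hfP (Subgroup.mem_zpowers (f : G))
  obtain ⟨Y, hYP, hY, hY3, -, hYc⟩ := h.two_classes5 f.2 h5 hP' hfP'
  have hxc : Nat.card (zpowers x) = 5 := by rw [Nat.card_zpowers, hx]
  obtain ⟨k, hk⟩ := hYc (zpowers x) hxc
  have hkY : cj k (zpowers x) = Y := hk.resolve_left (h.not_conj_z f.2 (Or.inr h5) hxz k)
  -- the Sylow subgroup containing x
  set P := cj k⁻¹ P' with hPdef
  have hP : IsSylowIn 5 P ⊤ := by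
    have := hP'.cj k⁻¹
    have h1 : cj k⁻¹ (⊤ : Subgroup G) = ⊤ := by
      rw [eq_top_iff]; intro y _; rw [mem_cj]; trivial
    rwa [h1] at this
  have hxY : zpowers x = cj k⁻¹ Y := by rw [← hkY, cj_inv_cj]
  have hxP : zpowers x ≤ P := by rw [hxY]; exact cj_mono _ hYP
  have hNP : Nat.card (normalizer (P : Set G)) = 300 := by
    rw [hPdef, normalizer_cj, card_cj]; exact (h.card_NP f.2 h5 hP' hfP').1
  have hc3 : Nat.card (cjSet (normalizer (P : Set G)) (zpowers x)) = 3 := by
    rw [← hY3]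
    have h1 : cjSet (normalizer (P : Set G)) (zpowers x) = (fun Z => cj k⁻¹ Z) ''
        cjSet (normalizer (P' : Set G)) Y := by
      ext Z
      constructor
      · rintro ⟨n, hn, rfl⟩
        rw [hPdef, normalizer_cj, mem_cj, inv_inv] at hn
        refine ⟨cj (k * n * k⁻¹) Y, ⟨_, hn, rfl⟩, ?_⟩
        simp only
        rw [← cj_mul, hxY, ← cj_mul]
        congr 1; group
      · rintro ⟨_, ⟨n, hn, rfl⟩, rfl⟩
        refine ⟨k⁻¹ * n * k, ?_, ?_⟩
        · rw [hPdef, normalizer_cj, mem_cj, inv_inv]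
          have : k * (k⁻¹ * n * k) * k⁻¹ = n := by group
          rw [this]; exact hn
        · simp only
          rw [hxY, ← cj_mul, ← cj_mul]
          congr 1; group
    rw [h1]
    exact Nat.card_image_of_injective (cj_injective k⁻¹) _
  have h100 : Nat.card ↥(normalizer (P : Set G) ⊓ normalizer ((zpowers x : Subgroup G) : Set G)) = 100 := by
    have := card_cjSet (normalizer (P : Set G)) (zpowers x)
    rw [hc3, hNP] at this
    omega
  -- the quotient C(x)/<x>
  set C := centralizer ({x} : Set G) with hC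
  have hzC : z ∈ C := mem_centralizer_singleton_iff.2 hxz.symm
  have hzx : ∀ n : ℤ, z * x ^ n = x ^ n * z := fun n =>
    ((show Commute x z from hxz).zpow_left n).symm
  let s : C ⧸ zpowers (selfC x) := QuotientGroup.mk' (zpowers (selfC x)) ⟨z, hzC⟩
  have hs : s * s = 1 := by
    change QuotientGroup.mk' (zpowers (selfC x)) ⟨z, hzC⟩ * QuotientGroup.mk' (zpowers (selfC x)) ⟨z, hzC⟩ = 1
    rw [← map_mul]
    have : (⟨z, hzC⟩ : C) * ⟨z, hzC⟩ = 1 := by
      apply Subtype.ext
      change z * z = 1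
      rw [← pow_two, ← h.hz]; exact pow_orderOf_eq_one z
    rw [this, map_one]
  have hmem : ∀ c : C, QuotientGroup.mk' (zpowers (selfC x)) c = 1 → (c : G) ∈ zpowers x := by
    intro c hc
    rw [← MonoidHom.mem_ker, QuotientGroup.ker_mk'] at hc
    obtain ⟨n, hn⟩ := Subgroup.mem_zpowers_iff.1 hc
    exact Subgroup.mem_zpowers_iff.2 ⟨n, congrArg Subtype.val hn⟩
  have hmem' : ∀ c : C, (c : G) ∈ zpowers x → QuotientGroup.mk' (zpowers (selfC x)) c = 1 := by
    intro c hc
    rw [← MonoidHom.mem_ker, QuotientGroup.ker_mk']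
    obtain ⟨n, hn⟩ := Subgroup.mem_zpowers_iff.1 hc
    exact Subgroup.mem_zpowers_iff.2 ⟨n, Subtype.ext hn⟩
  have hznx : z ∉ zpowers x := by
    intro h1
    have h2 := Subgroup.orderOf_dvd_natCard _ h1
    rw [hxc, h.hz] at h2; omega
  have hs1 : s ≠ 1 := fun hh => hznx (hmem ⟨z, hzC⟩ hh)
  have hCC : C ⊓ centralizer ({z} : Set G) = zpowers z ⊔ zpowers x := by
    symm
    apply Subgroup.eq_of_le_of_card_ge
    · apply sup_le
      · rw [Subgroup.zpowers_le]; exact Subgroup.mem_inf.2 ⟨hzC, mem_centralizer_singleton_iff.2 rfl⟩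
      · rw [Subgroup.zpowers_le]; exact Subgroup.mem_inf.2 ⟨mem_centralizer_singleton_iff.2 rfl, mem_centralizer_singleton_iff.2 hxz⟩
    · rw [h.five_card x hx hxz, card_sup_comm, Nat.card_zpowers, Nat.card_zpowers, h.hz, hx]
      · rintro _ ⟨m, rfl⟩ _ ⟨n, rfl⟩
        exact ((show Commute z x from hxz.symm).zpow_zpow m n)
      · rw [eq_bot_iff]
        rintro a ⟨ha, hb⟩
        have h1 := Subgroup.orderOf_dvd_natCard _ ha
        have h2 := Subgroup.orderOf_dvd_natCard _ hb
        rw [Nat.card_zpowers, h.hz] at h1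
        rw [hxc] at h2
        have h3 : orderOf a ∣ 1 := Nat.dvd_gcd h1 h2
        exact orderOf_eq_one_iff.1 (Nat.dvd_one.1 h3)
  have hself : ∀ g : C ⧸ zpowers (selfC x), g * s = s * g → g = 1 ∨ g = s := by
    intro g hg
    obtain ⟨g, rfl⟩ := QuotientGroup.mk'_surjective (zpowers (selfC x)) g
    have h1 : QuotientGroup.mk' (zpowers (selfC x)) ((⟨z, hzC⟩ : C)⁻¹ * (g * ⟨z, hzC⟩ * g⁻¹)) = 1 := by
      change QuotientGroup.mk' (zpowers (selfC x)) g * QuotientGroup.mk' (zpowers (selfC x)) ⟨z, hzC⟩ =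
        QuotientGroup.mk' (zpowers (selfC x)) ⟨z, hzC⟩ * QuotientGroup.mk' (zpowers (selfC x)) g at hg
      rw [map_mul, map_mul, map_mul, hg, map_inv, map_inv]; group
    have h2 := hmem _ h1
    obtain ⟨n, hn⟩ := Subgroup.mem_zpowers_iff.1 h2
    have hn' : x ^ n = z⁻¹ * ((g : G) * z * (g : G)⁻¹) := hn
    have h3 : (g : G) * z * (g : G)⁻¹ = z * x ^ n := by rw [hn']; group
    have hzz : z * z = 1 := by rw [← pow_two, ← h.hz]; exact pow_orderOf_eq_one z
    have h4 : z * x ^ n * (z * x ^ n) = 1 := by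
      rw [← h3]
      calc (g : G) * z * (g : G)⁻¹ * ((g : G) * z * (g : G)⁻¹) = (g : G) * (z * z) * (g : G)⁻¹ := by group
        _ = 1 := by rw [hzz]; group
    have h5 : x ^ n * x ^ n = 1 := by
      calc x ^ n * x ^ n = (z * z) * (x ^ n * x ^ n) := by rw [hzz, one_mul]
        _ = z * (z * x ^ n) * x ^ n := by group
        _ = z * (x ^ n * z) * x ^ n := by rw [hzx]
        _ = z * x ^ n * (z * x ^ n) := by group
        _ = 1 := h4
    have h6 : x ^ n = 1 := by
      have h7 : orderOf (x ^ n) ∣ 2 := orderOf_dvd_of_pow_eq_one (by rw [pow_two]; exact h5)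
      have h8 : orderOf (x ^ n) ∣ 5 := by
        rw [← hx]; exact orderOf_dvd_of_mem_zpowers (Subgroup.zpow_mem_zpowers x n)
      have h9 : orderOf (x ^ n) ∣ 1 := Nat.dvd_gcd h7 h8
      exact orderOf_eq_one_iff.1 (Nat.dvd_one.1 h9)
    rw [h6, mul_one] at h3
    have h10 : (g : G) ∈ C ⊓ centralizer ({z} : Set G) := by
      refine Subgroup.mem_inf.2 ⟨g.2, mem_centralizer_singleton_iff.2 ?_⟩
      calc (g : G) * z = (g : G) * z * (g : G)⁻¹ * g := by group
        _ = z * g := by rw [h3]
    rw [hCC, mem_sup_comm (by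
      rintro _ ⟨m, rfl⟩ _ ⟨n, rfl⟩
      exact ((show Commute z x from hxz.symm).zpow_zpow m n))] at h10
    obtain ⟨a, ha, b, hb, hab⟩ := h10
    have h11 : a = 1 ∨ a = z := by
      obtain ⟨m, rfl⟩ := ha
      rcases Int.even_or_odd' m with ⟨j, rfl | rfl⟩
      · left; change z ^ (2 * j) = 1; rw [zpow_mul, zpow_ofNat, pow_two, hzz, one_zpow]
      · right; change z ^ (2 * j + 1) = z
        rw [zpow_add_one, zpow_mul, zpow_ofNat, pow_two, hzz, one_zpow, one_mul]
    rcases h11 with rfl | rfl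
    · left
      apply hmem'
      rw [← hab, one_mul]; exact hb
    · right
      have h12 : QuotientGroup.mk' (zpowers (selfC x)) ((⟨a, hzC⟩ : C)⁻¹ * g) = 1 := by
        apply hmem'
        change a⁻¹ * (g : G) ∈ zpowers x
        rw [← hab]; simpa using hb
      rw [map_mul, map_inv] at h12
      exact (inv_mul_eq_one.1 h12).symm
  obtain ⟨O, hO2, hOodd, hOab⟩ := ce2 hs hs1 hself
  -- pull back
  set O' : Subgroup C := O.comap (QuotientGroup.mk' (zpowers (selfC x))) with hO'
  have hO'2 : O'.index = 2 := by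
    rw [hO', Subgroup.index_comap_of_surjective _ (QuotientGroup.mk'_surjective _), hO2]
  set O'' : Subgroup G := O'.map C.subtype with hO''
  have hO''c : Nat.card O'' = Nat.card O' :=
    (Nat.card_congr (O'.equivMapOfInjective _ C.subtype_injective).toEquiv).symm
  have hxP' : x ∈ P := hxP (Subgroup.mem_zpowers x)
  have hPC : P ≤ C := fun a ha =>
    mem_centralizer_singleton_iff.2 (h.comm_syl5 hP a ha x hxP')
  have hPO : P ≤ O'' := by
    intro a ha
    refine ⟨⟨a, hPC ha⟩, ?_, rfl⟩
    -- odd order elements lie in index two subgroups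
    haveI : O'.Normal := Subgroup.normal_of_index_eq_two hO'2
    have h1 : (⟨a, hPC ha⟩ : C) ^ 2 ∈ O' := by
      have := Subgroup.pow_index_mem O' (⟨a, hPC ha⟩ : C)
      rwa [hO'2] at this
    have h25 : (⟨a, hPC ha⟩ : C) ^ 25 = 1 := by
      apply Subtype.ext
      change a ^ 25 = 1
      have := Subgroup.orderOf_dvd_natCard _ ha
      rw [h.card_syl5 hP] at this
      exact orderOf_dvd_iff_pow_eq_one.1 this
    have h2 : (⟨a, hPC ha⟩ : C) = ((⟨a, hPC ha⟩ : C) ^ 2) ^ 13 := by
      rw [← pow_mul, show 2 * 13 = 25 + 1 by norm_num, pow_succ, h25, one_mul]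
    rw [SetLike.mem_coe, h2]
    exact O'.pow_mem h1 13
  have hON : O'' ≤ normalizer (P : Set G) ⊓ normalizer ((zpowers x : Subgroup G) : Set G) := by
    apply le_inf
    · rintro _ ⟨g, hg, rfl⟩
      have h1 : cj (g : G) P ≤ P := by
        intro a ha
        rw [mem_cj] at ha
        obtain ⟨b, hb, hba⟩ := hPO ha
        have h2 := hOab _ hg _ hb
        have h3 : QuotientGroup.mk' (zpowers (selfC x)) (g * b * g⁻¹ * b⁻¹) = 1 := by
          rw [map_mul, map_mul, map_mul, map_inv, map_inv]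
          have h2' : QuotientGroup.mk' (zpowers (selfC x)) g * QuotientGroup.mk' (zpowers (selfC x)) b =
            QuotientGroup.mk' (zpowers (selfC x)) b * QuotientGroup.mk' (zpowers (selfC x)) g := h2
          rw [h2']; group
        have h4 := hxP (hmem _ h3)
        have h5 : (b : G) = (g : G)⁻¹ * a * g := hba
        have h6 : a = ((g * b * g⁻¹ * b⁻¹ : C) : G) * b := by
          change a = (g : G) * b * (g : G)⁻¹ * (b : G)⁻¹ * b
          rw [h5]; group
        rw [h6]
        exact P.mul_mem h4 (by rw [h5]; exact ha)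
      rw [Subgroup.coe_subtype, mem_normalizer_iff_cj]
      exact Subgroup.eq_of_le_of_card_ge h1 (card_cj (g : G) P).ge
    · rintro _ ⟨g, hg, rfl⟩
      have := centralizer_le_norm (zpowers x)
      apply this
      rw [centralizer_zpowers]
      exact g.2
  have hd := Subgroup.card_dvd_of_le hON
  rw [h100] at hd
  have hd25 := Subgroup.card_dvd_of_le hPO
  rw [h.card_syl5 hP] at hd25
  have hcard := O'.card_mul_index
  rw [hO'2, ← hO''c] at hcard
  -- oddness
  have hodd : Odd (Nat.card O'') := by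
    rw [hO''c]
    have h1 : Nat.card O' = Nat.card O * 5 := by
      have e1 := O.card_mul_index
      have e2 := Subgroup.card_eq_card_quotient_mul_card_subgroup (zpowers (selfC x))
      rw [Nat.card_zpowers, orderOf_selfC, hx] at e2
      rw [hO2] at e1
      have e3 : Nat.card O' * 2 = Nat.card O * 5 * 2 := by
        rw [← hO''c, hcard]
        change Nat.card C = _
        rw [e2, ← e1]; ring
      omega
    rw [h1]
    exact hOodd.mul (by decide)
  have h25 : Nat.card O'' = 25 := by
    obtain ⟨m, hm⟩ := hd25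
    rw [hm] at hd hodd ⊢
    have h1 : m ∣ 4 := by
      have : 25 * m ∣ 25 * 4 := hd
      exact Nat.dvd_of_mul_dvd_mul_left (by norm_num) this
    have h2 : m ≤ 4 := Nat.le_of_dvd (by norm_num) h1
    have h3 : m = 1 := by
      interval_cases m
      · simp at h1
      · rfl
      · exfalso; revert hodd; decide
      · omega
      · exfalso; revert hodd; decide
    rw [h3]
  rw [h25] at hcard
  change Nat.card C = 50
  rw [← hcard]

end j2

end Cfsg.Agent.LE
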