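import Cfsg.Agent.LE.J2Three

/-! Elements of order 3 in a group of Hall-Janko type: orders of centralizers. -/

set_option autoImplicit false
set_option linter.style.haveILetI false

namespace Cfsg.Agent.LE

open Subgroup
open Cfsg.Agent.H80

section j2
variable {G : Type*} [Group G] [Finite G] {z t : G} {E L K : Subgroup G} (h : J2Loc z t E L K)
include h

omit [Finite G] in
theorem J2Loc.yz {y : G} (hy : y ∈ K) : y * z = z * y := h.comm y hy z h.hzL

/-- `C(y) ∩ C(f)` -/
theorem J2Loc.card_CyCf {y f : G} (hy : y ∈ K) (hy3 : orderOf y = 3) (hf : f ∈ L)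
    (h5 : orderOf f = 5) :
    Nat.card ↥(centralizer ({y} : Set G) ⊓ centralizer ({f} : Set G)) = 15 := by
  obtain ⟨hC, hA5⟩ := h.card_C5 hf h5
  have hyf : y * f = f * y := h.comm y hy f hf
  have hcomm : ∀ a ∈ zpowers y, ∀ b ∈ zpowers f, a * b = b * a := by
    rintro _ ⟨m, rfl⟩ _ ⟨n, rfl⟩
    exact ((show Commute y f from hyf).zpow_zpow m n)
  have hcop : zpowers y ⊓ zpowers f = ⊥ := by
    rw [eq_bot_iff]
    rintro a ⟨ha, hb⟩
    have h1 := Subgroup.orderOf_dvd_natCard _ ha
    have h2 := Subgroup.orderOf_dvd_natCard _ hb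
    rw [Nat.card_zpowers, hy3] at h1
    rw [Nat.card_zpowers, h5] at h2
    have h3 : orderOf a ∣ 1 := Nat.dvd_gcd h1 h2
    exact orderOf_eq_one_iff.1 (Nat.dvd_one.1 h3)
  have key : centralizer ({y} : Set G) ⊓ centralizer ({f} : Set G) = zpowers y ⊔ zpowers f := by
    apply le_antisymm
    · intro g hg
      obtain ⟨hgy, hgf⟩ := Subgroup.mem_inf.1 hg
      set C := centralizer ({f} : Set G) with hCdef
      have hyC : y ∈ C := mem_centralizer_singleton_iff.2 hyf
      have hmem : ∀ c : C, QuotientGroup.mk' (zpowers (selfC f)) c = 1 → (c : G) ∈ zpowers f := by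
        intro c hc
        rw [← MonoidHom.mem_ker, QuotientGroup.ker_mk'] at hc
        obtain ⟨n, hn⟩ := Subgroup.mem_zpowers_iff.1 hc
        exact Subgroup.mem_zpowers_iff.2 ⟨n, congrArg Subtype.val hn⟩
      have ho : orderOf (QuotientGroup.mk' (zpowers (selfC f)) (⟨y, hyC⟩ : C)) = 3 := by
        apply orderOf_eq_prime
        · rw [← map_pow]
          have : (⟨y, hyC⟩ : C) ^ 3 = 1 := by
            apply Subtype.ext
            change y ^ 3 = 1
            rw [← hy3]; exact pow_orderOf_eq_one y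
          rw [this, map_one]
        · intro h1
          have h2 := hmem _ h1
          have h3 : y ∈ zpowers y ⊓ zpowers f := ⟨Subgroup.mem_zpowers y, h2⟩
          rw [hcop, mem_bot] at h3
          rw [h3, orderOf_one] at hy3
          omega
      have hc : QuotientGroup.mk' (zpowers (selfC f)) (⟨g, hgf⟩ : C) *
          QuotientGroup.mk' (zpowers (selfC f)) (⟨y, hyC⟩ : C) =
          QuotientGroup.mk' (zpowers (selfC f)) (⟨y, hyC⟩ : C) *
          QuotientGroup.mk' (zpowers (selfC f)) (⟨g, hgf⟩ : C) := by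
        rw [← map_mul, ← map_mul]
        congr 1
        exact Subtype.ext (mem_centralizer_singleton_iff.1 hgy)
      obtain ⟨n, hn⟩ := Subgroup.mem_zpowers_iff.1 (A5.three_cent hA5 ho hc)
      have h4 : QuotientGroup.mk' (zpowers (selfC f)) ((⟨y, hyC⟩ : C) ^ (-n) * ⟨g, hgf⟩) = 1 := by
        rw [map_mul, map_zpow, ← hn, ← zpow_add, neg_add_cancel, zpow_zero]
      have h5 := hmem _ h4
      have h6 : y ^ (-n) * g ∈ zpowers f := h5
      have h7 : g = y ^ n * (y ^ (-n) * g) := by group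
      rw [h7]
      exact Subgroup.mul_mem_sup (Subgroup.zpow_mem_zpowers y n) h6
    · apply sup_le
      · rw [Subgroup.zpowers_le]
        exact Subgroup.mem_inf.2 ⟨mem_centralizer_singleton_iff.2 rfl, mem_centralizer_singleton_iff.2 hyf⟩
      · rw [Subgroup.zpowers_le]
        exact Subgroup.mem_inf.2 ⟨mem_centralizer_singleton_iff.2 hyf.symm, mem_centralizer_singleton_iff.2 rfl⟩
  rw [key, card_sup_comm hcomm hcop, Nat.card_zpowers, Nat.card_zpowers, hy3, h5]

theorem J2Loc.not25 {y : G} (hy3 : orderOf y = 3) :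
    ¬ 25 ∣ Nat.card (centralizer ({y} : Set G)) := by
  haveI : Fact (Nat.Prime 5) := ⟨by norm_num⟩
  intro h25
  obtain ⟨P, hP, -⟩ := exists_isSylowIn_ge (p := 5) (K := centralizer ({y} : Set G))
    (IsPGroup.of_bot : IsPGroup 5 (⊥ : Subgroup G)) bot_le
  have h1 := sylowIn_card hP
  have h2 : 25 ∣ Nat.card P := by
    rw [h1]
    have h3 : 5 ^ 2 ∣ Nat.card (centralizer ({y} : Set G)) := by norm_num; exact h25
    have h4 := ((Nat.Prime.pow_dvd_iff_le_factorization (by norm_num) Nat.card_pos.ne').1 h3)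
    exact (show 25 = 5 ^ 2 by norm_num) ▸ Nat.pow_dvd_pow 5 h4
  -- P is a Sylow subgroup of G
  obtain ⟨P', hP', hle⟩ := exists_isSylowIn_ge hP.1 (le_top : P ≤ ⊤)
  have h5 : Nat.card P' = 25 := h.card_syl5 hP'
  have h6 : P = P' := Subgroup.eq_of_le_of_card_ge hle (by
    rw [h5]; exact Nat.le_of_dvd Nat.card_pos h2)
  rw [← h6] at hP'
  obtain ⟨k, T, hT, -⟩ : ∃ k : G, ∃ T : Sylow 5 G, (T : Subgroup G) = P ∧ k = 1 := by
    obtain ⟨T, hT⟩ := hP'.1.exists_le_sylow
    exact ⟨1, T, hP'.2.2 T T.2 le_top hT, rfl⟩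
  have hcent := (h.sylow_five T).1
  rw [hT] at hcent
  have hyP : y ∈ P := by
    rw [← hcent, mem_centralizer_iff]
    intro a ha
    exact mem_centralizer_singleton_iff.1 (hP.2.1 ha)
  have h7 := Subgroup.orderOf_dvd_natCard _ hyP
  rw [hy3, h6, h5] at h7
  omega

/-- 2-part of `|C(y)|`, `y` of order 3 commuting with `z`. -/
theorem J2Loc.card_two {y : G} (hy3 : orderOf y = 3) (hyz : y * z = z * y) :
    24 ∣ Nat.card (centralizer ({y} : Set G)) ∧ ¬ 16 ∣ Nat.card (centralizer ({y} : Set G)) := by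
  haveI : Fact (Nat.Prime 2) := ⟨by norm_num⟩
  refine ⟨?_, ?_⟩
  · rw [← h.three_card y hy3 hyz]
    exact Subgroup.card_dvd_of_le inf_le_left
  · intro h16
    have hzC : zpowers z ≤ centralizer ({y} : Set G) := by
      rw [Subgroup.zpowers_le]; exact mem_centralizer_singleton_iff.2 hyz.symm
    have hzp : IsPGroup 2 (zpowers z) := IsPGroup.of_card (n := 1) (by rw [Nat.card_zpowers, h.hz, pow_one])
    obtain ⟨T, hT, hzT⟩ := exists_isSylowIn_ge hzp hzC
    have hzT' := hzT (Subgroup.mem_zpowers z)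
    have h1 := sylowIn_card hT
    have h2 : 16 ∣ Nat.card T := by
      rw [h1]
      have h3 : 2 ^ 4 ∣ Nat.card (centralizer ({y} : Set G)) := by norm_num; exact h16
      have h4 := ((Nat.Prime.pow_dvd_iff_le_factorization (by norm_num) Nat.card_pos.ne').1 h3)
      exact (show 16 = 2 ^ 4 by norm_num) ▸ Nat.pow_dvd_pow 2 h4
    have hz1 : z ≠ 1 := by rintro rfl; have := h.hz; rw [orderOf_one] at this; omega
    haveI : Nontrivial T := ⟨⟨⟨z, hzT'⟩, 1, fun hh => hz1 (congrArg Subtype.val hh)⟩⟩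
    haveI := hT.1.center_nontrivial
    -- an involution in the center of T
    have hcp : IsPGroup 2 (Subgroup.center T) := hT.1.to_subgroup _
    obtain ⟨c, hc⟩ : ∃ c : Subgroup.center T, orderOf c = 2 := by
      apply exists_prime_orderOf_dvd_card'
      obtain ⟨n, hn⟩ := IsPGroup.iff_card.1 hcp
      rw [hn]
      apply dvd_pow_self
      rintro rfl
      have := Finite.one_lt_card (α := Subgroup.center T)
      rw [hn, pow_zero] at this
      exact lt_irrefl _ this
    set w : G := ((c : T) : G) with hw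
    have hw2 : orderOf w = 2 := by rw [hw, Subgroup.orderOf_coe, Subgroup.orderOf_coe, hc]
    have hwT : ∀ a ∈ T, a * w = w * a := by
      intro a ha
      have := Subgroup.mem_center_iff.1 c.2 ⟨a, ha⟩
      exact congrArg Subtype.val this
    have hwy : w * y = y * w := mem_centralizer_singleton_iff.1 (hT.2.1 (c : T).2)
    have hconj := h.three_inv y hy3 hyz w hw2 hwy (hwT z hzT').symm
    obtain ⟨g, hg⟩ := isConj_iff.1 hconj
    -- conjugate by g : T ≤ C(y) ∩ C(w)
    have h5 : cj g T ≤ centralizer ({g * y * g⁻¹} : Set G) ⊓ centralizer ({z} : Set G) := by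
      intro a ha
      rw [mem_cj] at ha
      refine Subgroup.mem_inf.2 ⟨?_, ?_⟩
      · rw [mem_centralizer_singleton_iff]
        have := mem_centralizer_singleton_iff.1 (hT.2.1 ha)
        calc a * (g * y * g⁻¹) = g * (g⁻¹ * a * g * y) * g⁻¹ := by group
          _ = g * (y * (g⁻¹ * a * g)) * g⁻¹ := by rw [this]
          _ = _ := by group
      · rw [mem_centralizer_singleton_iff, ← hg]
        have := hwT _ ha
        calc a * (g * w * g⁻¹) = g * (g⁻¹ * a * g * w) * g⁻¹ := by group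
          _ = g * (w * (g⁻¹ * a * g)) * g⁻¹ := by rw [this]
          _ = _ := by group
    have h6 := Subgroup.card_dvd_of_le h5
    rw [card_cj, h.three_card (g * y * g⁻¹)] at h6
    · have := h2.trans h6
      omega
    · rw [← hy3]; exact (MulAut.conj g).orderOf_eq y
    · rw [← hg]
      calc g * y * g⁻¹ * (g * w * g⁻¹) = g * (y * w) * g⁻¹ := by group
        _ = g * (w * y) * g⁻¹ := by rw [hwy]
        _ = _ := by group

theorem J2Loc.card_C3K {y : G} (hy : y ∈ K) (hy3 : orderOf y = 3) :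
    Nat.card (centralizer ({y} : Set G)) = 1080 := by
  haveI : Fact (Nat.Prime 5) := ⟨by norm_num⟩
  have hyz := h.yz hy
  obtain ⟨h24, h16⟩ := h.card_two hy3 hyz
  have h25 := h.not25 hy3
  obtain ⟨f, hf5⟩ := A5.exists_five h.eL
  have h5 : orderOf (f : G) = 5 := by rw [← hf5]; exact Subgroup.orderOf_coe f
  have hyf : y * f = f * y := h.comm y hy f f.2
  have hfC : zpowers (f : G) ≤ centralizer ({y} : Set G) := by
    rw [Subgroup.zpowers_le]; exact mem_centralizer_singleton_iff.2 hyf.symm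
  have hF5 : Nat.card (zpowers (f : G)) = 5 := by rw [Nat.card_zpowers, h5]
  have h5d := Subgroup.card_dvd_of_le hfC
  rw [hF5] at h5d
  have hS : IsSylowIn 5 (zpowers (f : G)) (centralizer ({y} : Set G)) := by
    apply isSylowIn_of_card_eq (k := 1) hfC (by rw [hF5, pow_one])
    by_contra hlt
    push Not at hlt
    apply h25
    have h3 : 5 ^ 2 ∣ Nat.card (centralizer ({y} : Set G)) :=
      (Nat.Prime.pow_dvd_iff_le_factorization (by norm_num) Nat.card_pos.ne').2 hlt
    norm_num at h3; exact h3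
  obtain ⟨n, hn1, hn⟩ := sylow_count hS
  have h30 : Nat.card ↥(centralizer ({y} : Set G) ⊓ normalizer ((zpowers (f : G) : Subgroup G) : Set G)) = 30 := by
    rw [card_two_mul (x := (f : G))]
    · have h1 : centralizer ({y} : Set G) ⊓ normalizer ((zpowers (f : G) : Subgroup G) : Set G) ⊓
          centralizer ({(f : G)} : Set G) = centralizer ({y} : Set G) ⊓ centralizer ({(f : G)} : Set G) := by
        apply le_antisymm
        · exact le_inf (inf_le_left.trans inf_le_left) inf_le_right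
        · refine le_inf (le_inf inf_le_left (inf_le_right.trans ?_)) inf_le_right
          rw [← centralizer_zpowers]
          exact centralizer_le_norm _
      rw [h1, h.card_CyCf hy hy3 f.2 h5]
    · intro g hg
      exact h.N_conj f.2 (Or.inr h5) (mem_norm_zpowers.1 (Subgroup.mem_inf.1 hg).2)
    · obtain ⟨l, hl, -, -, hlf⟩ := h.exists_inv f.2 (Or.inr h5)
      refine ⟨l, Subgroup.mem_inf.2 ⟨mem_centralizer_singleton_iff.2 (h.comm y hy l hl).symm, ?_⟩, hlf⟩
      rw [mem_norm_zpowers, hlf]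
      exact inv_mem (Subgroup.mem_zpowers _)
    · exact ne_inv_of_order (Or.inr h5)
  rw [h30] at hn
  have hdvd : Nat.card (centralizer ({y} : Set G)) ∣ 604800 := by
    rw [← h.cardG]; exact Subgroup.card_subgroup_dvd_card _
  generalize Nat.card (centralizer ({y} : Set G)) = c at *
  have hn1' : n % 5 = 1 := hn1
  -- c = 120 m, m ∣ 5040
  have h120 : 120 ∣ c := by
    have : Nat.lcm 24 5 ∣ c := Nat.lcm_dvd h24 h5d
    exact this
  obtain ⟨m, rfl⟩ := h120
  have hm : m ∣ 5040 := by
    have : 120 * m ∣ 120 * 5040 := hdvd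
    exact Nat.dvd_of_mul_dvd_mul_left (by norm_num) this
  have hm2 : ¬ 2 ∣ m := fun ⟨k, hk⟩ => h16 ⟨15 * k, by rw [hk]; ring⟩
  have hm5 : ¬ 5 ∣ m := fun ⟨k, hk⟩ => h25 ⟨24 * k, by rw [hk]; ring⟩
  have hm63 : m ∣ 63 := by
    have h1 : m ∣ 80 * 63 := hm
    refine Nat.Coprime.dvd_of_dvd_mul_left ?_ h1
    rw [show 80 = 2 ^ 4 * 5 by norm_num]
    apply Nat.Coprime.mul_right
    · exact ((Nat.Prime.coprime_iff_not_dvd Nat.prime_two).2 hm2).symm.pow_right 4
    · exact ((Nat.Prime.coprime_iff_not_dvd (by norm_num)).2 hm5).symm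
  have hm' : m ≤ 63 := Nat.le_of_dvd (by norm_num) hm63
  have hnm : n = 4 * m := by omega
  have hm9 : m = 9 := by
    have h1 : m % 5 = 4 := by omega
    obtain ⟨j, hj⟩ := hm63
    have hj' : j ≤ 63 := Nat.le_of_dvd (by norm_num) ⟨m, by rw [hj]; ring⟩
    interval_cases m <;> omega
  rw [hm9]

/-- `|C(d)| = 36` -/
theorem J2Loc.card_C3L {d : G} (hd : d ∈ L) (hd3 : orderOf d = 3) :
    Nat.card (centralizer ({d} : Set G)) = 36 := by
  haveI : Fact (Nat.Prime 5) := ⟨by norm_num⟩
  haveI : Fact (Nat.Prime 3) := ⟨by norm_num⟩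
  rcases h.cent_L hd (Or.inl hd3) with h1 | h1
  · rw [h1, hd3]
  exfalso
  have hC := h1.1
  rw [hd3] at hC
  obtain ⟨x, hx, hx5⟩ := exists_mem_orderOf (p := 5) (K := centralizer ({d} : Set G))
    (by rw [hC]; norm_num)
  have hxd := mem_centralizer_singleton_iff.1 hx
  obtain ⟨f, hf5⟩ := A5.exists_five h.eL
  have h5 : orderOf (f : G) = 5 := by rw [← hf5]; exact Subgroup.orderOf_coe f
  have hfp : IsPGroup 5 (zpowers (f : G)) :=
    IsPGroup.of_card (n := 1) (by rw [Nat.card_zpowers, h5, pow_one])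
  obtain ⟨P', hP', hfP⟩ := exists_isSylowIn_ge hfp (le_top : zpowers (f : G) ≤ ⊤)
  have hfP' := hfP (Subgroup.mem_zpowers (f : G))
  obtain ⟨Y, hYP, hY, hY3, -, hYc⟩ := h.two_classes5 f.2 h5 hP' hfP'
  obtain ⟨k, hk | hk⟩ := hYc (zpowers x) (by rw [Nat.card_zpowers, hx5])
  · -- d conjugate into C(f)
    obtain ⟨y, hy3⟩ := A4.exists_three h.eK
    have hy3' : orderOf (y : G) = 3 := by rw [← hy3]; exact Subgroup.orderOf_coe y
    have hCf := (h.card_C5 f.2 h5).1
    have hdC : zpowers (k * d * k⁻¹) ≤ centralizer ({(f : G)} : Set G) := by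
      rw [Subgroup.zpowers_le, ← centralizer_zpowers, ← hk, centralizer_cj, mem_cj,
        centralizer_zpowers, mem_centralizer_singleton_iff]
      have : k⁻¹ * (k * d * k⁻¹) * k = d := by group
      rw [this]; exact hxd.symm
    have hyC : zpowers (y : G) ≤ centralizer ({(f : G)} : Set G) := by
      rw [Subgroup.zpowers_le]; exact mem_centralizer_singleton_iff.2 (h.comm y y.2 f f.2)
    have hd3' : orderOf (k * d * k⁻¹) = 3 := by
      rw [← hd3]; exact (MulAut.conj k).orderOf_eq d
    have s1 : IsSylowIn 3 (zpowers (k * d * k⁻¹)) (centralizer ({(f : G)} : Set G)) :=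
      isSylowIn_of_card_eq' (k := 1) (m := 100) hdC (by rw [Nat.card_zpowers, hd3', pow_one])
        (by rw [hCf]; norm_num) (by norm_num)
    have s2 : IsSylowIn 3 (zpowers (y : G)) (centralizer ({(f : G)} : Set G)) :=
      isSylowIn_of_card_eq' (k := 1) (m := 100) hyC (by rw [Nat.card_zpowers, hy3', pow_one])
        (by rw [hCf]; norm_num) (by norm_num)
    obtain ⟨c, -, hc⟩ := s1.exists_conj s2
    have e1 := card_centralizer_of_cj hc
    rw [← card_centralizer_conj (isConj_iff.2 ⟨k, rfl⟩ : IsConj d (k * d * k⁻¹)), hC,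
      h.card_C3K y.2 hy3'] at e1
    omega
  · -- x is conjugate to the other class
    obtain ⟨x', hx', hx'5⟩ := exists_mem_orderOf (p := 5) (K := centralizer ({z} : Set G))
      (by rw [h.cardCz]; norm_num)
    have hx'z := mem_centralizer_singleton_iff.1 hx'
    obtain ⟨k', hk'⟩ := hYc (zpowers x') (by rw [Nat.card_zpowers, hx'5])
    have hk'' := hk'.resolve_left (h.not_conj_z f.2 (Or.inr h5) hx'z k')
    have e2 : cj (k'⁻¹ * k) (zpowers x) = zpowers x' := by
      rw [cj_mul, hk, ← hk'', cj_inv_cj]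
    have e3 := card_centralizer_of_cj e2
    rw [h.card_C5z hx'5 hx'z] at e3
    have hdC : zpowers d ≤ centralizer ({x} : Set G) := by
      rw [Subgroup.zpowers_le]; exact mem_centralizer_singleton_iff.2 hxd.symm
    have e4 := Subgroup.card_dvd_of_le hdC
    rw [e3, Nat.card_zpowers, hd3] at e4
    omega

/-- the two classes of elements of order 5 : centralizer orders -/
theorem J2Loc.card_C5x {x : G} (hx : orderOf x = 5) :
    Nat.card (centralizer ({x} : Set G)) = 300 ∨ Nat.card (centralizer ({x} : Set G)) = 50 := by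
  haveI : Fact (Nat.Prime 5) := ⟨by norm_num⟩
  obtain ⟨f, hf5⟩ := A5.exists_five h.eL
  have h5 : orderOf (f : G) = 5 := by rw [← hf5]; exact Subgroup.orderOf_coe f
  have hfp : IsPGroup 5 (zpowers (f : G)) :=
    IsPGroup.of_card (n := 1) (by rw [Nat.card_zpowers, h5, pow_one])
  obtain ⟨P', hP', hfP⟩ := exists_isSylowIn_ge hfp (le_top : zpowers (f : G) ≤ ⊤)
  have hfP' := hfP (Subgroup.mem_zpowers (f : G))
  obtain ⟨Y, hYP, hY, hY3, -, hYc⟩ := h.two_classes5 f.2 h5 hP' hfP'
  obtain ⟨k, hk | hk⟩ := hYc (zpowers x) (by rw [Nat.card_zpowers, hx])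
  · left
    rw [card_centralizer_of_cj hk]
    exact (h.card_C5 f.2 h5).1
  · right
    obtain ⟨x', hx', hx'5⟩ := exists_mem_orderOf (p := 5) (K := centralizer ({z} : Set G))
      (by rw [h.cardCz]; norm_num)
    have hx'z := mem_centralizer_singleton_iff.1 hx'
    obtain ⟨k', hk'⟩ := hYc (zpowers x') (by rw [Nat.card_zpowers, hx'5])
    have hk'' := hk'.resolve_left (h.not_conj_z f.2 (Or.inr h5) hx'z k')
    have e2 : cj (k'⁻¹ * k) (zpowers x) = zpowers x' := by
      rw [cj_mul, hk, ← hk'', cj_inv_cj]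
    rw [card_centralizer_of_cj e2, h.card_C5z hx'5 hx'z]

end j2

end Cfsg.Agent.LE
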