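import Cfsg.Agent.LE.J2ThreeB
import Cfsg.Agent.Extra.Basic

/-! Sylow 3-subgroups in a group of Hall-Janko type. -/

set_option autoImplicit false
set_option linter.style.haveILetI false

namespace Cfsg.Agent.LE

open Subgroup
open Cfsg.Agent.H80

section general

/-- A nonabelian group of order `p³` is extraspecial. -/
theorem extraspecial_of_card {P : Type*} [Group P] {p : ℕ} [hp : Fact p.Prime]
    (hP : Nat.card P = p ^ 3) (hne : ¬ ∀ a b : P, a * b = b * a) :
    Cfsg.IsExtraspecial p P ∧ Nat.card (Subgroup.center P) = p := by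
  haveI : Finite P := Nat.finite_of_card_ne_zero (by rw [hP]; exact pow_ne_zero _ hp.out.ne_zero)
  obtain ⟨k, hk0, hk⟩ := IsPGroup.card_center_eq_prime_pow hP (by norm_num)
  have hmul := (Subgroup.center P).card_mul_index
  rw [hk, hP] at hmul
  have hk1 : k = 1 := by
    by_contra hk1
    have hk2 : 2 ≤ k := by omega
    apply hne
    have hidx : (Subgroup.center P).index ∣ p := by
      have h1 : p ^ k * (Subgroup.center P).index = p ^ 3 := hmul
      have h2 : p ^ 2 * (Subgroup.center P).index ∣ p ^ 2 * p := by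
        rw [← pow_succ]
        rw [← h1]
        exact Nat.mul_dvd_mul (pow_dvd_pow p hk2) dvd_rfl
      exact Nat.dvd_of_mul_dvd_mul_left (pow_pos hp.out.pos 2) h2
    haveI : IsCyclic (P ⧸ Subgroup.center P) := by
      apply isCyclic_of_card_dvd_prime (p := p)
      exact hidx
    have := isMulCommutative_of_isCyclic_quotient_center_self P
    exact this.is_comm.comm
  rw [hk1, pow_one] at hk
  refine ⟨?_, hk⟩
  apply Cfsg.Agent.Extra.isExtraspecial_of_ges
  · refine ⟨hk, ?_⟩
    have hq : Nat.card (P ⧸ Subgroup.center P) = p ^ 2 := by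
      rw [hk1] at hmul
      have h1 : p * (Subgroup.center P).index = p * p ^ 2 := by
        rw [← pow_succ', ← hmul, pow_one]
      exact Nat.eq_of_mul_eq_mul_left hp.out.pos h1
    have hcomm := (IsPGroup.isMulCommutative_of_card_eq_prime_sq (p := p) hq).is_comm.comm
    change commutator P ≤ Subgroup.center P
    rw [commutator_eq_closure, Subgroup.closure_le]
    rintro _ ⟨a, b, rfl⟩
    have h1 := hcomm (QuotientGroup.mk' (Subgroup.center P) a) (QuotientGroup.mk' (Subgroup.center P) b)
    rw [SetLike.mem_coe, ← QuotientGroup.ker_mk' (Subgroup.center P), MonoidHom.mem_ker,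
      map_commutatorElement, commutatorElement_eq_one_iff_mul_comm]
    exact h1
  · intro h1
    apply hne
    intro a b
    have : b ∈ Subgroup.center P := by rw [h1]; trivial
    exact Subgroup.mem_center_iff.1 this a

theorem A5.index_le_four {A : Type*} [Group A] (e : Nonempty (A ≃* alternatingGroup (Fin 5)))
    (H : Subgroup A) (hH : H.index ≤ 4) : H = ⊤ := by
  classical
  haveI := A5.finite e
  haveI := A5.simple e
  have hker : (MulAction.toPermHom A (A ⧸ H)).ker ≤ H := by
    intro a ha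
    rw [MonoidHom.mem_ker] at ha
    have h1 : a • ((1 : A) : A ⧸ H) = ((1 : A) : A ⧸ H) := by
      have := congrArg (fun σ : Equiv.Perm (A ⧸ H) => σ ((1 : A) : A ⧸ H)) ha
      exact this
    have h2 : ((a * 1 : A) : A ⧸ H) = ((1 : A) : A ⧸ H) := h1
    rw [mul_one] at h2
    have := QuotientGroup.eq.1 h2.symm
    simpa using this
  rcases (inferInstance : (MulAction.toPermHom A (A ⧸ H)).ker.Normal).eq_bot_or_eq_top with h1 | h1
  · exfalso
    have hinj : Function.Injective (MulAction.toPermHom A (A ⧸ H)) := (MonoidHom.ker_eq_bot_iff _).1 h1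
    have h2 := Nat.card_le_card_of_injective _ hinj
    rw [A5.card e, Nat.card_perm] at h2
    have h3 : Nat.card (A ⧸ H) = H.index := rfl
    rw [h3] at h2
    have h4 : (H.index).factorial ≤ Nat.factorial 4 := Nat.factorial_le hH
    have h5 : Nat.factorial 4 = 24 := rfl
    omega
  · rw [h1] at hker
    exact top_le_iff.1 hker

end general

section j2
variable {G : Type*} [Group G] [Finite G] {z t : G} {E L K : Subgroup G} (h : J2Loc z t E L K)
include h

theorem J2Loc.cent_dy {y d : G} (hy : y ∈ K) (hy3 : orderOf y = 3) (hd : d ∈ L)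
    (hd3 : orderOf d = 3) : centralizer ({d} : Set G) = K ⊔ zpowers d ∧
    (∀ g ∈ centralizer ({d} : Set G), g * y * g⁻¹ ∈ zpowers y → g ∈ zpowers y ⊔ zpowers d) := by
  have hKd : ∀ a ∈ K, ∀ b ∈ zpowers d, a * b = b * a := fun a ha b hb =>
    h.comm a ha b ((Subgroup.zpowers_le.2 hd) hb)
  have h1 : centralizer ({d} : Set G) = K ⊔ zpowers d := by
    symm
    apply Subgroup.eq_of_le_of_card_ge
    · apply sup_le
      · intro k hk; exact mem_centralizer_singleton_iff.2 (h.comm k hk d hd)
      · rw [Subgroup.zpowers_le]; exact mem_centralizer_singleton_iff.2 rfl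
    · rw [h.card_C3L hd hd3, card_sup_comm hKd, A4.card h.eK, Nat.card_zpowers, hd3]
      rw [eq_bot_iff, ← h.disj]
      exact inf_le_inf_left K (Subgroup.zpowers_le.2 hd)
  refine ⟨h1, ?_⟩
  intro g hg hgy
  rw [h1, mem_sup_comm hKd] at hg
  obtain ⟨k, hk, b, hb, rfl⟩ := hg
  have hby : b * y = y * b := (h.comm y hy b ((Subgroup.zpowers_le.2 hd) hb)).symm
  have h2 : k * b * y * (k * b)⁻¹ = k * y * k⁻¹ := by
    calc k * b * y * (k * b)⁻¹ = k * (b * y) * b⁻¹ * k⁻¹ := by group
      _ = k * (y * b) * b⁻¹ * k⁻¹ := by rw [hby]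
      _ = k * y * k⁻¹ := by group
  rw [h2] at hgy
  have h3 : k * y = y * k ∨ k * y = y⁻¹ * k := by
    obtain ⟨n, hn⟩ := Subgroup.mem_zpowers_iff.1 hgy
    have hy3' : y ^ 3 = 1 := by rw [← hy3]; exact pow_orderOf_eq_one y
    have hmod : k * y * k⁻¹ = y ^ (n % 3).toNat := by
      rw [← hn, ← zpow_natCast, Int.toNat_of_nonneg (Int.emod_nonneg n (by norm_num))]
      have := zpow_mod_orderOf y n
      rw [hy3] at this
      exact this.symm
    have hlt : (n % 3).toNat < 3 := by omega
    have hy1 : y ≠ 1 := by rintro rfl; rw [orderOf_one] at hy3; omega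
    have hne : k * y * k⁻¹ ≠ 1 := by
      intro hh; apply hy1; rwa [mul_inv_eq_one, mul_eq_left] at hh
    have hback : ∀ w, k * y * k⁻¹ = w → k * y = w * k := by
      intro w hw; rw [← hw]; group
    generalize (n % 3).toNat = m at hmod hlt
    interval_cases m
    · exact absurd (by rw [hmod, pow_zero]) hne
    · left; rw [hback _ hmod, pow_one]
    · right; rw [hback _ hmod]
      congr 1
      apply eq_inv_of_mul_eq_one_left
      rw [← pow_succ, hy3']
  have h4 : (⟨k, hk⟩ : K) ∈ zpowers (⟨y, hy⟩ : K) := by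
    apply A4.three_norm h.eK (by rw [← hy3]; exact Subgroup.orderOf_mk y hy)
    rcases h3 with h3 | h3
    · left; exact Subtype.ext h3
    · right; exact Subtype.ext h3
  obtain ⟨n, hn⟩ := Subgroup.mem_zpowers_iff.1 h4
  exact Subgroup.mul_mem_sup (Subgroup.mem_zpowers_iff.2 ⟨n, congrArg Subtype.val hn⟩) hb

theorem J2Loc.exists_P3 : ∃ (P : Subgroup G) (y d : G), IsSylowIn 3 P ⊤ ∧ y ∈ K ∧ orderOf y = 3 ∧
    d ∈ L ∧ orderOf d = 3 ∧ y ∈ P ∧ d ∈ P ∧ P ≤ centralizer ({y} : Set G) ∧ Nat.card P = 27 := by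
  haveI : Fact (Nat.Prime 3) := ⟨by norm_num⟩
  obtain ⟨y, hy3⟩ := A4.exists_three h.eK
  have hy3' : orderOf (y : G) = 3 := by rw [← hy3]; exact Subgroup.orderOf_coe y
  obtain ⟨d, hd3⟩ := A5.exists_three h.eL
  have hd3' : orderOf (d : G) = 3 := by rw [← hd3]; exact Subgroup.orderOf_coe d
  have hcomm : ∀ a ∈ zpowers (y : G), ∀ b ∈ zpowers (d : G), a * b = b * a := fun a ha b hb =>
    h.comm a ((Subgroup.zpowers_le.2 y.2) ha) b ((Subgroup.zpowers_le.2 d.2) hb)
  have hdis : zpowers (y : G) ⊓ zpowers (d : G) = ⊥ := by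
    rw [eq_bot_iff, ← h.disj]
    exact inf_le_inf (Subgroup.zpowers_le.2 y.2) (Subgroup.zpowers_le.2 d.2)
  have h9 : Nat.card ↥(zpowers (y : G) ⊔ zpowers (d : G)) = 9 := by
    rw [card_sup_comm hcomm hdis, Nat.card_zpowers, Nat.card_zpowers, hy3', hd3']
  have hle : zpowers (y : G) ⊔ zpowers (d : G) ≤ centralizer ({(y : G)} : Set G) := by
    apply sup_le
    · rw [Subgroup.zpowers_le]; exact mem_centralizer_singleton_iff.2 rfl
    · rw [Subgroup.zpowers_le]; exact mem_centralizer_singleton_iff.2 (h.comm y y.2 d d.2).symm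
  obtain ⟨P, hP, hSP⟩ := exists_isSylowIn_ge (p := 3) (IsPGroup.of_card (n := 2) (by rw [h9]; norm_num)) hle
  have h27 : Nat.card P = 27 := by
    have := sylowIn_card_eq (k := 3) (m := 40) hP (by rw [h.card_C3K y.2 hy3']; norm_num) (by norm_num)
    rw [this]; norm_num
  refine ⟨P, y, d, ?_, y.2, hy3', d.2, hd3', ?_, ?_, hP.2.1, h27⟩
  · exact isSylowIn_of_card_eq' (k := 3) (m := 22400) le_top (by rw [h27]; norm_num)
      (by rw [h.card_top]; norm_num) (by norm_num)
  · exact hSP (Subgroup.mem_sup_left (Subgroup.mem_zpowers _))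
  · exact hSP (Subgroup.mem_sup_right (Subgroup.mem_zpowers _))

theorem J2Loc.P3_nonab {P : Subgroup G} {d : G} (hd : d ∈ L) (hd3 : orderOf d = 3) (hdP : d ∈ P)
    (h27 : Nat.card P = 27) : ¬ ∀ a b : P, a * b = b * a := by
  intro hab
  have hle : P ≤ centralizer ({d} : Set G) := fun a ha =>
    mem_centralizer_singleton_iff.2 (congrArg Subtype.val (hab ⟨a, ha⟩ ⟨d, hdP⟩))
  have h1 := Subgroup.card_dvd_of_le hle
  rw [h27, h.card_C3L hd hd3] at h1
  omega

/-- an involution of `L` normalizes `P` -/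
theorem J2Loc.even_NP3 {P : Subgroup G} {y d : G} (hP : IsSylowIn 3 P ⊤) (hy : y ∈ K)
    (hy3 : orderOf y = 3) (hd : d ∈ L) (hd3 : orderOf d = 3) (hyP : y ∈ P) (hdP : d ∈ P)
    (hPC : P ≤ centralizer ({y} : Set G)) (h27 : Nat.card P = 27) :
    2 ∣ Nat.card ↥(centralizer ({y} : Set G) ⊓ normalizer (P : Set G)) := by
  classical
  haveI : Fact (Nat.Prime 3) := ⟨by norm_num⟩
  have hcomm : ∀ a ∈ zpowers y, ∀ b ∈ zpowers d, a * b = b * a := fun a ha b hb =>
    h.comm a ((Subgroup.zpowers_le.2 hy) ha) b ((Subgroup.zpowers_le.2 hd) hb)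
  have hdis : zpowers y ⊓ zpowers d = ⊥ := by
    rw [eq_bot_iff, ← h.disj]
    exact inf_le_inf (Subgroup.zpowers_le.2 hy) (Subgroup.zpowers_le.2 hd)
  set S := zpowers y ⊔ zpowers d with hS
  have h9 : Nat.card S = 9 := by
    rw [hS, card_sup_comm hcomm hdis, Nat.card_zpowers, Nat.card_zpowers, hy3, hd3]
  have hSP : S ≤ P := sup_le (Subgroup.zpowers_le.2 hyP) (Subgroup.zpowers_le.2 hdP)
  have hPN : P ≤ normalizer (S : Set G) := by
    have h1 : (S.subgroupOf P).index = 3 := by
      have h2 := (S.subgroupOf P).card_mul_index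
      rw [Nat.card_congr (Subgroup.subgroupOfEquivOfLe hSP).toEquiv, h9, h27] at h2
      omega
    have h2 : (S.subgroupOf P).Normal := by
      apply Subgroup.normal_of_index_eq_minFac_card
      rw [h1, h27]; norm_num
    exact (Subgroup.normal_subgroupOf_iff_le_normalizer hSP).1 h2
  obtain ⟨l, hl, hl1, hl2, hld⟩ := h.exists_inv hd (Or.inl hd3)
  have hly : l * y = y * l := (h.comm y hy l hl).symm
  have hlN : l ∈ normalizer (S : Set G) := by
    rw [mem_normalizer_iff_cj]
    apply Subgroup.eq_of_le_of_card_ge _ (card_cj l S).ge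
    rw [hS, cj_le_iff]
    have hl' : l⁻¹ = l := inv_eq_of_mul_eq_one_left hl2
    rw [hl']
    apply sup_le
    · rw [Subgroup.zpowers_le, mem_cj]
      have : l⁻¹ * y * l = y := by rw [mul_assoc, ← hly]; group
      rw [this]; exact Subgroup.mem_sup_left (Subgroup.mem_zpowers y)
    · rw [Subgroup.zpowers_le, mem_cj, hl']
      have : l * d * l = d⁻¹ := by rw [← hld, hl']
      rw [this]; exact Subgroup.mem_sup_right (inv_mem (Subgroup.mem_zpowers d))
  set R := centralizer ({y} : Set G) ⊓ normalizer (S : Set G) with hR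
  have hPR : P ≤ R := le_inf hPC hPN
  have hlR : l ∈ R := Subgroup.mem_inf.2 ⟨mem_centralizer_singleton_iff.2 hly, hlN⟩
  have hRd : R ⊓ centralizer ({d} : Set G) = S := by
    apply le_antisymm
    · intro g hg
      obtain ⟨hg1, hg2⟩ := Subgroup.mem_inf.1 hg
      apply (h.cent_dy hy hy3 hd hd3).2 g hg2
      have := mem_centralizer_singleton_iff.1 (Subgroup.mem_inf.1 hg1).1
      rw [this, mul_inv_cancel_right]
      exact Subgroup.mem_zpowers y
    · refine le_inf (hSP.trans hPR) ?_
      apply sup_le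
      · rw [Subgroup.zpowers_le]; exact mem_centralizer_singleton_iff.2 (h.comm y hy d hd)
      · rw [Subgroup.zpowers_le]; exact mem_centralizer_singleton_iff.2 rfl
  have hcard := card_clSet R d
  rw [hRd, h9] at hcard
  have hle6 : Nat.card (clSet R d) ≤ 6 := by
    have h1 : clSet R d ⊆ (S : Set G) \ (zpowers y : Set G) := by
      rintro _ ⟨g, hg, rfl⟩
      have hgN := (Subgroup.mem_inf.1 hg).2
      have hgC := mem_centralizer_singleton_iff.1 (Subgroup.mem_inf.1 hg).1
      refine ⟨(mem_normalizer_iff_conj.1 hgN d).1 (Subgroup.mem_sup_right (Subgroup.mem_zpowers d)), ?_⟩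
      intro h2
      obtain ⟨n, hn⟩ := Subgroup.mem_zpowers_iff.1 h2
      have h3 : d = y ^ n := by
        have h4 : g⁻¹ * y ^ n * g = y ^ n := by
          have : Commute g y := hgC
          rw [mul_assoc, ← (this.zpow_right n).eq]; group
        rw [← h4, hn]; group
      have h5 : d ∈ zpowers y ⊓ zpowers d :=
        Subgroup.mem_inf.2 ⟨by rw [h3]; exact Subgroup.zpow_mem_zpowers y n, Subgroup.mem_zpowers d⟩
      rw [hdis, mem_bot] at h5
      rw [h5, orderOf_one] at hd3; omega
    have h2 : ((S : Set G) \ (zpowers y : Set G)).ncard = 6 := by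
      rw [Set.ncard_sdiff (show (zpowers y : Set G) ⊆ S from fun a ha => Subgroup.mem_sup_left ha)]
      have e1 : (S : Set G).ncard = 9 := h9
      have e2 : (zpowers y : Set G).ncard = 3 := by
        have : Nat.card (zpowers y) = 3 := by rw [Nat.card_zpowers, hy3]
        exact this
      rw [e1, e2]
    have h3 := Set.ncard_le_ncard h1 (Set.toFinite _)
    rw [h2] at h3
    exact h3
  have h27R := Subgroup.card_dvd_of_le hPR
  rw [h27] at h27R
  have h2R : 2 ∣ Nat.card R := by
    have : orderOf l = 2 := orderOf_eq_prime (by rw [pow_two]; exact hl2) hl1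
    rw [← this]; exact Subgroup.orderOf_dvd_natCard R hlR
  have h54 : Nat.card R = 54 := by
    have h1 : 54 ∣ Nat.card R := by
      have : Nat.lcm 27 2 ∣ Nat.card R := Nat.lcm_dvd h27R h2R
      exact this
    have h2 : Nat.card R ≤ 54 := by rw [← hcard]; omega
    exact le_antisymm h2 (Nat.le_of_dvd Nat.card_pos h1)
  have hlP : l ∈ normalizer (P : Set G) := by
    have h1 : (P.subgroupOf R).index = 2 := by
      have h2 := (P.subgroupOf R).card_mul_index
      rw [Nat.card_congr (Subgroup.subgroupOfEquivOfLe hPR).toEquiv, h27, h54] at h2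
      omega
    have h2 : (P.subgroupOf R).Normal := Subgroup.normal_of_index_eq_two h1
    exact (Subgroup.normal_subgroupOf_iff_le_normalizer hPR).1 h2 hlR
  have : orderOf l = 2 := orderOf_eq_prime (by rw [pow_two]; exact hl2) hl1
  rw [← this]
  exact Subgroup.orderOf_dvd_natCard _ (Subgroup.mem_inf.2 ⟨mem_centralizer_singleton_iff.2 hly, hlP⟩)

end j2

end Cfsg.Agent.LE
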