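import Cfsg.Agent.LE.J2Bridge

/-!
The hypotheses "`Q ⊴ C(t)` extraspecial of order 32, `C_C(Q) ≤ Q`, `C/Q ≃ A₅`" (owner: helper58).
-/
set_option autoImplicit false

namespace Cfsg.Agent.LE

open Subgroup Cfsg.Agent.H90

variable {G : Type*} [Group G] [Finite G]

omit [Finite G] in
theorem pl_of_cent {z : G} (hz : orderOf z = 2) {Q : Subgroup (centralizer ({z} : Set G))} [hn : Q.Normal]
    (hX : Cfsg.IsExtraspecial 2 Q) (h2c : centralizer (Q : Set (centralizer ({z} : Set G))) ≤ Q) :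
    PL (Q.map (centralizer ({z} : Set G)).subtype) z := by
  obtain ⟨ζ, hζ, -⟩ := XS.of_isExtraspecial hX
  have hzC : z ∈ centralizer ({z} : Set G) := by rw [mem_centralizer_singleton_iff]
  have hc : ∀ c : centralizer ({z} : Set G), c * (⟨z, hzC⟩ : centralizer ({z} : Set G)) = ⟨z, hzC⟩ * c := by
    intro c
    apply Subtype.ext
    exact mem_centralizer_singleton_iff.1 c.2
  have h1 : (⟨z, hzC⟩ : centralizer ({z} : Set G)) ∈ Q := by
    apply h2c
    rw [mem_centralizer_iff]
    intro c _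
    exact hc c
  have hX0 : XS Q (⟨z, hzC⟩ : centralizer ({z} : Set G)) := by
    rcases hζ.nondeg _ h1 (fun y _ => (hc y).symm) with h3 | h3
    · exfalso
      have : z = 1 := congrArg Subtype.val h3
      rw [this, orderOf_one] at hz
      omega
    · rw [h3]; exact hζ
  have hX' := hX0.map_subtype
  refine { toXS := hX', cent := fun g hg => ?_, norm := fun g hg => ?_ }
  · have hgC : g ∈ centralizer ({z} : Set G) := by
      rw [mem_centralizer_singleton_iff]
      have := hg z hX'.mem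
      exact this
    have h1 : (⟨g, hgC⟩ : centralizer ({z} : Set G)) ∈ Q := by
      apply h2c
      rw [mem_centralizer_iff]
      intro c hc
      apply Subtype.ext
      exact (hg c ⟨c, hc, rfl⟩).symm
    exact hX'.nondeg g ⟨_, h1, rfl⟩ hg
  · rintro _ ⟨q, hq, rfl⟩
    have hgC : g ∈ centralizer ({z} : Set G) := by
      rw [mem_centralizer_singleton_iff]
      exact hg
    exact ⟨_, hn.conj_mem q hq ⟨g, hgC⟩, rfl⟩

omit [Finite G] in
theorem card_le_finset (H : Subgroup G) (s : Finset G) (h : ∀ a ∈ H, a ∈ s) : Nat.card H ≤ s.card := by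
  have h1 : Nat.card H = (H : Set G).ncard := rfl
  rw [h1, ← Set.ncard_coe_finset s]
  exact Set.ncard_le_ncard (fun a ha => h a ha) s.finite_toSet

theorem exists_invol {Q : Subgroup G} {z : G} (h : XS Q z) (hQ : Nat.card Q = 32) :
    ∃ u ∈ Q, u ≠ 1 ∧ u ≠ z ∧ u * u = 1 := by
  classical
  by_contra hcon
  push Not at hcon
  have hfin : Finite Q := Nat.finite_of_card_ne_zero (by rw [hQ]; norm_num)
  have key : ∀ u ∈ Q, u ≠ 1 → u ≠ z → u * u = z := fun u hu h1 h2 =>
    (h.sqr hu).resolve_left (hcon u hu h1 h2)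
  obtain ⟨y, hy, hy1, hyz⟩ : ∃ y ∈ Q, y ≠ 1 ∧ y ≠ z := by
    by_contra hc
    push Not at hc
    have h1 := card_le_finset Q ({1, z} : Finset G) (by
      intro a ha
      by_cases h1 : a = 1
      · simp [h1]
      · simp [hc a ha h1])
    rw [hQ] at h1
    have := Finset.card_le_two (a := (1 : G)) (b := z)
    omega
  have h2 : ∀ w ∈ Q, y * w = w * y → w = 1 ∨ w = z ∨ w = y⁻¹ ∨ w = y⁻¹ * z := by
    intro w hw hyw
    by_cases w1 : w = 1
    · exact Or.inl w1
    by_cases wz : w = z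
    · exact Or.inr (Or.inl wz)
    right; right
    have h3 : (y * w) * (y * w) = 1 := by
      calc (y * w) * (y * w) = y * (w * y) * w := by group
        _ = (y * y) * (w * w) := by rw [← hyw]; group
        _ = 1 := by rw [key y hy hy1 hyz, key w hw w1 wz, h.sq]
    have h4 : y * w = 1 ∨ y * w = z := by
      by_contra hc
      push Not at hc
      exact hcon _ (Q.mul_mem hy hw) hc.1 hc.2 h3
    rcases h4 with h4 | h4
    · left; exact (inv_eq_of_mul_eq_one_right h4).symm
    · right; rw [← h4]; group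
  have h5 := h.card_inf_centralizer_ge Q le_rfl hy
  have h6 := card_le_finset (Q ⊓ centralizer ({y} : Set G)) ({1, z, y⁻¹, y⁻¹ * z} : Finset G) (by
    intro q hq
    have := h2 q hq.1 (mem_centralizer_singleton_iff.1 hq.2).symm
    simp only [Finset.mem_insert, Finset.mem_singleton]
    exact this)
  have := Finset.card_le_four (a := (1 : G)) (b := z) (c := y⁻¹) (d := y⁻¹ * z)
  omega

theorem exists_base' {z : G} (hz : orderOf z = 2) (Q : Subgroup (centralizer ({z} : Set G)))
    [Q.Normal] (hX : Cfsg.IsExtraspecial 2 Q) (hcard : Nat.card Q = 32)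
    (h2c : centralizer (Q : Set (centralizer ({z} : Set G))) ≤ Q)
    (hq : Nat.card ((centralizer ({z} : Set G)) ⧸ Q) = 60) :
    ∃ x : Fin 5 → G, Base (Q.map (centralizer ({z} : Set G)).subtype) z x := by
  have pl := pl_of_cent hz hX h2c
  have cardQ : Nat.card ↥(Q.map (centralizer ({z} : Set G)).subtype) = 32 := by
    rw [← hcard]
    exact (Nat.card_congr (Q.equivMapOfInjective _ (Subgroup.subtype_injective _)).toEquiv).symm
  have cardC : Nat.card (centralizer ({z} : Set G)) = 1920 := by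
    rw [Subgroup.card_eq_card_quotient_mul_card_subgroup Q, hq, hcard]
  have : Fact (Nat.Prime 5) := ⟨by norm_num⟩
  obtain ⟨f, hf⟩ := exists_prime_orderOf_dvd_card' (G := centralizer ({z} : Set G)) 5
    (by rw [cardC]; norm_num)
  have hf5 : (f : G) ^ 5 = 1 := by
    rw [← hf, ← Subgroup.orderOf_coe, pow_orderOf_eq_one]
  have hf1 : (f : G) ≠ 1 := by
    intro h
    rw [← Subgroup.orderOf_coe, h, orderOf_one] at hf
    omega
  obtain ⟨u, hu, hu1, huz, huu⟩ := exists_invol pl.toXS cardQ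
  obtain ⟨x, hx, _⟩ := exists_pts pl cardQ hf5 hf1 (mem_cent.mp f.2) hu hu1 huz huu
  exact ⟨x, pl, hx, cardQ, cardC⟩

variable {Q : Subgroup G} {z : G} {x : Fin 5 → G}

/-- If `z` is weakly closed in `Q`, it is isolated in `C(z)`. -/
theorem Base.isolated (B : Base Q z x) (hw : ∀ g : G, g * z * g⁻¹ ∈ Q → g * z * g⁻¹ = z) (g : G)
    (hg : (g * z * g⁻¹) * z = z * (g * z * g⁻¹)) : g * z * g⁻¹ = z := by
  by_contra hne
  have zz : z * z = 1 := B.pl.sq
  have hsQ : g * z * g⁻¹ ∉ Q := fun h => hne (hw g h)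
  obtain ⟨u, U⟩ := B.centV hg hsQ (conj_sq zz)
  have ht : g⁻¹ * z * g ∉ Q := by
    intro h
    apply hne
    have h1 := hw g⁻¹ (by rwa [inv_inv])
    rw [inv_inv] at h1
    calc g * z * g⁻¹ = g * (g⁻¹ * z * g) * g⁻¹ := by rw [h1]
      _ = z := by group
  have tz : (g⁻¹ * z * g) * z = z * (g⁻¹ * z * g) := by
    calc (g⁻¹ * z * g) * z = g⁻¹ * (z * (g * z * g⁻¹)) * g := by group
      _ = g⁻¹ * ((g * z * g⁻¹) * z) * g := by rw [hg]
      _ = z * (g⁻¹ * z * g) := by group
  have tt : (g⁻¹ * z * g) * (g⁻¹ * z * g) = 1 := by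
    have := conj_sq (g := g⁻¹) zz
    rwa [inv_inv] at this
  have key : ∀ a ∈ Q, a ≠ z → a * a = 1 → a * (g * z * g⁻¹) = (g * z * g⁻¹) * a → g⁻¹ * a * g ∈ Q := by
    intro a haQ haz haa has
    by_contra hc
    have a1 : (g⁻¹ * a * g) * (g⁻¹ * a * g) = 1 := by
      have := conj_sq (g := g⁻¹) haa
      rwa [inv_inv] at this
    have a2 : (g⁻¹ * a * g) * z = z * (g⁻¹ * a * g) := by
      calc (g⁻¹ * a * g) * z = g⁻¹ * (a * (g * z * g⁻¹)) * g := by group
        _ = g⁻¹ * ((g * z * g⁻¹) * a) * g := by rw [has]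
        _ = z * (g⁻¹ * a * g) := by group
    obtain ⟨c, _, hcc⟩ := B.conj_involution tz ht tt a2 hc (Or.inl a1)
    have e : (g * c * g⁻¹) * z * (g * c * g⁻¹)⁻¹ = a := by
      calc (g * c * g⁻¹) * z * (g * c * g⁻¹)⁻¹ = g * (c * (g⁻¹ * z * g) * c⁻¹) * g⁻¹ := by group
        _ = a := by rw [hcc]; group
    apply haz
    rw [← e]
    exact hw _ (by rw [e]; exact haQ)
  have zs : z * (g * z * g⁻¹) = (g * z * g⁻¹) * z := hg.symm
  have k1 := key u U.uQ U.uz U.uu U.uv
  have uzc : u * z = z * u := B.pl.central u U.uQ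
  have k2 := key (z * u) (Q.mul_mem B.pl.mem U.uQ) (by
    intro h
    apply U.u1
    exact mul_left_cancel (h.trans (mul_one z).symm)) (by
    calc z * u * (z * u) = z * (u * z) * u := by group
      _ = (z * z) * (u * u) := by rw [uzc]; group
      _ = 1 := by rw [zz, U.uu, one_mul]) (by
    calc z * u * (g * z * g⁻¹) = z * (u * (g * z * g⁻¹)) := by group
      _ = (z * (g * z * g⁻¹)) * u := by rw [U.uv]; group
      _ = (g * z * g⁻¹) * (z * u) := by rw [zs]; group)
  apply ht
  have e : g⁻¹ * z * g = (g⁻¹ * (z * u) * g) * (g⁻¹ * u * g) := by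
    calc g⁻¹ * z * g = g⁻¹ * (z * (u * u)) * g := by rw [U.uu, mul_one]
      _ = (g⁻¹ * (z * u) * g) * (g⁻¹ * u * g) := by group
  rw [e]
  exact Q.mul_mem k2 k1

/-- some Sylow 2-subgroup of `G` lies in `C(z)` -/
theorem Base.exists_sylow (B : Base Q z x) :
    ∃ S : Sylow 2 G, (S : Subgroup G) ≤ centralizer ({z} : Set G) := by
  have : Fact (Nat.Prime 2) := ⟨by norm_num⟩
  obtain ⟨S, hS⟩ := B.pl.isPGroup.exists_le_sylow
  refine ⟨S, ?_⟩
  have : Nontrivial S := by
    refine ⟨⟨1, ⟨z, hS B.pl.mem⟩, ?_⟩⟩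
    intro h
    exact B.pl.ne_one (congrArg Subtype.val h).symm
  have hc := S.isPGroup'.center_nontrivial
  obtain ⟨c, hc1⟩ := exists_ne (1 : Subgroup.center S)
  have hcomm : ∀ s ∈ S, (c : S) * (s : G) = s * (c : S) := by
    intro s hs
    have := Subgroup.mem_center_iff.mp c.2 ⟨s, hs⟩
    exact (congrArg Subtype.val this).symm
  have h1 := B.pl.cent ((c : S) : G) (fun q hq => hcomm q (hS hq))
  have hcz : ((c : S) : G) = z := by
    rcases h1 with h1 | h1
    · exfalso
      apply hc1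
      apply Subtype.ext
      exact Subtype.ext h1
    · exact h1
  intro s hs
  rw [mem_cent, ← hcz]
  exact (hcomm s hs).symm

end Cfsg.Agent.LE
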